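import Cfsg.Agent.H9.RL0
import Mathlib.Combinatorics.SimpleGraph.DegreeSum

/-! S3860: the coloured commuting graph of a class of involutions. -/

set_option autoImplicit false
set_option linter.unusedVariables false
set_option linter.unusedSectionVars false

namespace H20.RL
open H9.RL

universe u
variable {H A : Type u} [Group H] [Finite H] [Group A] {K X : Set H} {c : H → H → A}
  {e f g p q r s t x s' g' f₁ f₂ : H} {γ : A}

/-- an involution fixes an even number of points of an even set -/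
theorem par (hf : f * f = 1) (h : ∀ x ∈ X, f * x * f⁻¹ ∈ X) :
    Even X.ncard ↔ Even {x | x ∈ X ∧ Commute x f}.ncard := by
  classical
  have := Fintype.ofFinite H
  have k : Even {x | x ∈ X ∧ ¬ Commute x f}.ncard := by
    rw [Set.ncard_eq_toFinset_card', ← ZMod.natCast_eq_zero_iff_even, Finset.card_eq_sum_ones, Nat.cast_sum]
    refine Finset.sum_involution (fun x _ => f * x * f⁻¹) (fun _ _ => by decide) (fun x a _ k => ?_) (fun x a => ?_)
      fun x _ => ?_
    · exact (Set.mem_toFinset.1 a).2 (mul_inv_eq_iff_eq_mul.1 k).symm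
    · have := Set.mem_toFinset.1 a
      refine Set.mem_toFinset.2 ⟨h x this.1, fun k => this.2 ?_⟩
      have := ((Commute.refl f).inv_left.mul_left k).mul_left (Commute.refl f)
      rwa [show f⁻¹ * (f * x * f⁻¹) * f = x by group] at this
    · calc _ = f * f * x * (f * f)⁻¹ := by group
        _ = x := by rw [hf]; group
  rw [← Set.ncard_inter_add_ncard_diff_eq_ncard X {x | Commute x f}, Nat.even_add]
  exact ⟨fun a => a.2 k, fun a => iff_of_true a k⟩

theorem comm_J (h : Commute s t) (g : H) : Commute (g * s * g⁻¹) (g * t * g⁻¹) := h.map (MulAut.conj g)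

/-- the neighbours of colour `γ` -/
def Nb (K : Set H) (c : H → H → A) (γ : A) (s : H) : Set H := {f | f ∈ K ∧ f ≠ s ∧ Commute s f ∧ c s f = γ}

section
variable (h : Geo K c)
include h

theorem nb_J (hs : s ∈ K) (hf : f ∈ Nb K c γ s) (g : H) : g * f * g⁻¹ ∈ Nb K c γ (g * s * g⁻¹) :=
  ⟨h.J f hf.1 g, fun k => hf.2.1 (by simpa using k), comm_J hf.2.2.1 g, (h.cJ s hs f hf.1 hf.2.2.1 g).trans hf.2.2.2⟩

theorem nb_le (hs : s ∈ K) (ht : t ∈ K) : (Nb K c γ s).ncard ≤ (Nb K c γ t).ncard := by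
  obtain ⟨g, rfl⟩ := h.tr s hs t ht
  exact Set.ncard_le_ncard_of_injOn (fun f => g * f * g⁻¹) (fun f a => nb_J h hs a g) fun a _ b _ k => by simpa using k

theorem nb_even (hs : s ∈ K) : Even (Nb K c γ s).ncard := by
  classical
  have := Fintype.ofFinite H
  let Γ : SimpleGraph H := ⟨fun a b => a ∈ K ∧ b ∈ Nb K c γ a, ⟨fun a b k => ⟨k.2.1, k.1, k.2.2.1.symm, k.2.2.2.1.symm,
    (h.cs _ k.2.1 _ k.1 k.2.2.2.1.symm).trans k.2.2.2.2⟩⟩, ⟨fun a k => k.2.2.1 rfl⟩⟩
  by_contra n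
  have k := Γ.even_card_odd_degree_vertices
  rw [← Set.ncard_coe_finset] at k
  refine Nat.not_even_iff_odd.2 h.odd (by
    convert k
    ext a
    rw [Finset.coe_filter, Set.mem_setOf, ← Γ.card_neighborFinset_eq_degree, ← Set.ncard_coe_finset,
      Γ.coe_neighborFinset]
    by_cases m : a ∈ K
    · rw [show Γ.neighborSet a = Nb K c γ a from Set.ext fun b => and_iff_right m,
        (nb_le h m hs).antisymm (nb_le h hs m)]
      exact iff_of_true m ⟨Finset.mem_univ _, Nat.not_even_iff_odd.1 n⟩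
    · rw [show Γ.neighborSet a = ∅ from Set.eq_empty_of_forall_notMem fun b k => m k.1]
      exact iff_of_false m (by simp))

theorem c_pow (hf : f ∈ K) (k : Commute x f) (n : ℕ) : c (x ^ n) f = c x f ^ n := by
  induction n with
  | zero => simpa using h.cm f hf 1 1 (Commute.one_left f) (Commute.one_left f)
  | succ n ih => rw [pow_succ, h.cm f hf _ _ (k.pow_left n) k, ih, pow_succ]

theorem key (hs : s ∈ K) (ht : t ∈ K) (h1 : f₁ ∈ K) (h2 : f₂ ∈ K) (n : ¬ Commute s t) (f : Commute f₁ f₂)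
    (s1 : Commute s f₁) (s2 : Commute s f₂) (t1 : Commute t f₁) (t2 : Commute t f₂) : c f₁ f₂ = c s f₂ := by
  have J : ∀ {f x}, Commute s f → x ∈ Nb K c (c s f₁) s → f * x * f⁻¹ ∈ Nb K c (c s f₁) s := fun {f x} a b => by
    have := nb_J h hs b f
    rwa [← a.eq, mul_inv_cancel_right] at this
  have ev := (par (h.inv _ h2) (X := {x | x ∈ Nb K c (c s f₁) s ∧ Commute x f₁}) fun x a => ⟨J s2 a.1, by
    have := comm_J a.2 f₂
    rwa [← f.eq, mul_inv_cancel_right] at this⟩).1 ((par (h.inv _ h1) fun x => J s1).1 (nb_even h hs))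
  obtain ⟨g, ⟨⟨⟨gK, gs, sg, cg⟩, g1⟩, g2⟩, gf⟩ : ∃ g ∈ {x | x ∈ {x | x ∈ Nb K c (c s f₁) s ∧ Commute x f₁} ∧
      Commute x f₂}, g ≠ f₁ := by
    by_contra! k
    rw [Set.eq_singleton_iff_unique_mem.2 ⟨by exact ⟨⟨⟨h1, fun e => n (e ▸ t1.symm), s1, rfl⟩, .refl _⟩, f⟩, k⟩] at ev
    simp at ev
  have gt : ¬ Commute g t := fun k => h.i2 s hs t ht n f₁ h1 g gK gf.symm g1.symm s1 t1 sg k.symm cg.symm
  obtain ⟨m, ⟨j, rfl⟩, e⟩ := h.i4 s hs g gK f₁ h1 t ht gs.symm sg s1 g1 t1 (fun k => n k.symm)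
    (cg.trans (h.i1 s hs t ht n f₁ h1 s1 t1))
  rw [← e, c_pow h h2 ((s2.mul_left g2).mul_left t2), h.cm _ h2 _ _ (s2.mul_left g2) t2, h.cm _ h2 _ _ s2 g2,
    h.i1 g gK t ht gt f₂ h2 g2 t2, mul_assoc, h.c2 _ h2 _ t2, mul_one, pow_succ, pow_mul, pow_two, h.c2 _ h2 _ s2,
    one_pow, one_mul]

theorem ln_comm (hs : s ∈ K) (hg : g ∈ K) (n : s ≠ g) (k : Commute s g) (hp : p ∈ Ln K (s * g)) :
    Commute p s ∧ Commute p g :=
  ⟨h.i3 s hs g hg n k p hp.1 hp.2, h.i3 g hg s hs n.symm k.symm p hp.1 (k.eq ▸ hp.2)⟩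

theorem ll : LL K := fun s hs g hg n k p hp q hq => by_contra fun m => by
  obtain ⟨a, b⟩ := ln_comm h hs hg n k hp
  obtain ⟨a', b'⟩ := ln_comm h hs hg n k hq
  exact h.i2 p hp.1 q hq.1 m s hs g hg n k a a' b b' ((key h hp.1 hq.1 hg hs m k.symm b a b' a').symm.trans
    ((h.cs _ hg _ hs k.symm).trans (key h hp.1 hq.1 hs hg m k a b a' b')))

theorem ln_eq (hs : s ∈ K) (hg : g ∈ K) (n : s ≠ g) (k : Commute s g) (hp : p ∈ Ln K (s * g))
    (hq : q ∈ Ln K (s * g)) (m : p ≠ q) : Ln K (p * q) = Ln K (s * g) := by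
  obtain ⟨a, b⟩ := ln_comm h hs hg n k hp
  obtain ⟨a', b'⟩ := ln_comm h hs hg n k hq
  have l := ll h p hp.1 q hq.1 m (ll h s hs g hg n k p hp q hq)
  exact Set.ext fun r => ⟨fun hr => ⟨hr.1, (l r hr s ⟨hs, a.symm.mul_right a'.symm⟩).mul_right
    (l r hr g ⟨hg, b.symm.mul_right b'.symm⟩)⟩, fun hr => ⟨hr.1, (ll h s hs g hg n k r hr p hp).mul_right
      (ll h s hs g hg n k r hr q hq)⟩⟩

theorem sq1 (hs : s ∈ K) (hg : g ∈ K) (k : Commute s g) : s * g * (s * g) = 1 := by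
  rw [k.symm.mul_mul_mul_comm, h.inv s hs, h.inv g hg, one_mul]

theorem fin (hs : s ∈ K) (hg : g ∈ K) (n : s ≠ g) (k : Commute s g) (he : e ∈ Ln K (s * g)) (se : s ≠ e)
    (ht : t ∈ K) (te : Commute t e) (tn : t ∉ Ln K (s * g)) (tt : Commute (s * g * t * (s * g)⁻¹) t) : False := by
  have sL : s ∈ Ln K (s * g) := ⟨hs, (Commute.refl s).mul_right k⟩
  have es := (ln_comm h hs hg n k he).1
  have nc : ∀ r ∈ K, Commute r e → r ∉ Ln K (s * g) → ∀ p ∈ Ln K (s * g), p ≠ e → ¬ Commute r p :=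
    fun r a b d p hp pe l => d (ln_eq h hs hg n k hp he pe ▸ ⟨a, l.mul_right b⟩)
  have col : ∀ r ∈ K, Commute r e → r ≠ e → c r e = c t e := fun r a b d => by
    by_cases l : r ∈ Ln K (s * g)
    · exact (h.i1 t ht r a (nc t ht te tn r l d) e he.1 te b).symm
    · exact (h.i1 r a s hs (nc r a b l s sL se) e he.1 b es.symm).trans
        (h.i1 t ht s hs (nc t ht te tn s sL se) e he.1 te es.symm).symm
  obtain ⟨y, hy⟩ := h.tr g hg e he.1
  obtain ⟨m, ⟨j, rfl⟩, p⟩ := h.i4 s hs g hg e he.1 t ht n k es.symm (ln_comm h hs hg n k he).2.symm te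
    (nc t ht te tn s sL se) (by
      rw [← h.cJ s hs g hg k y, hy]
      exact col _ (h.J s hs y) (hy ▸ comm_J k y) fun l => n (by simpa using l.trans hy.symm))
  have u := sq1 h hs hg k
  have i := h.inv t ht
  set w := s * g
  rw [inv_eq_of_mul_eq_one_right u] at tt
  have p4 : (w * t) ^ 4 = 1 := by
    calc _ = w * t * w * (t * (w * t * w)) * t := by simp only [pow_succ, pow_zero, one_mul, mul_assoc]
      _ = w * (t * (w * w) * t) * w * (t * t) := by rw [← tt.eq]; group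
      _ = 1 := by rw [u, mul_one, i, mul_one, mul_one, u]
  have p2 : w * t * (w * t) = 1 := by
    have := h.inv e he.1
    rwa [← p, ← pow_add, show 2 * j + 1 + (2 * j + 1) = 4 * j + 2 by ring, pow_add, pow_mul, p4, one_pow, one_mul,
      pow_two] at this
  refine tn ⟨ht, ?_⟩
  calc t * w = w * w * (t * w) * (t * t) := by rw [u, i]; group
    _ = w * (w * t * (w * t)) * t := by group
    _ = w * t := by rw [p2, mul_one]

end

theorem ge1 : GE1.{u} := fun h => ll h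

theorem ge2 : GE2.{u} := fun {H A} _ _ _ {K c} h _ s hs g hg n k s' hs' g' hg' n' k' nm => by_contra fun ne => by
  have o : ¬ Even _ := mt (par (sq1 h hs hg k) nm).2 (mt (par (sq1 h hs' hg' k') fun x a => h.J x a _).2
    (Nat.not_even_iff_odd.2 h.odd))
  obtain ⟨e, e', ee⟩ := Set.nonempty_of_ncard_ne_zero fun z => o (z ▸ Even.zero)
  have he : e ∈ Ln K (s * g) := ⟨e'.1, ee⟩
  obtain ⟨t, ht, te⟩ : ∃ t ∈ Ln K (s' * g'), t ≠ e := by
    by_cases l : s' = e
    · exact ⟨g', ⟨hg', k'.symm.mul_right (.refl _)⟩, fun m => n' (l.trans m.symm)⟩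
    · exact ⟨s', ⟨hs', (Commute.refl _).mul_right k'⟩, l⟩
  have l := ll h s' hs' g' hg' n' k'
  have tn : t ∉ Ln K (s * g) := fun m => ne ((ln_eq h hs' hg' n' k' ht e' te).symm.trans (ln_eq h hs hg n k m he te))
  have tt := l _ (nm t ht) t ht
  by_cases se : s = e
  · rw [k.eq] at he tn tt
    exact fin h hg hs n.symm k.symm he (fun m => n (se.trans m.symm)) ht.1 (l t ht e e') tn tt
  · exact fin h hs hg n k he se ht.1 (l t ht e e') tn tt

end H20.RL
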