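/-
S3159, chunk DD: the pure group theory.
-/
import Cfsg.Agent.H26.SX0

set_option autoImplicit false
set_option linter.unusedSectionVars false
open Cfsg Subgroup H19 H23.F4 H26.SX
open scoped commutatorElement
namespace H20.SX
universe u

/-- a group of order `2^(2k+3)` with an automorphism of order three -/
def Bad (T : Type*) [Group T] : Prop :=
  ∃ k, Nat.card T = 2 ^ (2 * k + 3) ∧ ∃ α : MulAut T, α ^ 3 = 1 ∧ α ≠ 1

theorem Bad.equiv {T T' : Type*} [Group T] [Group T'] (h : Bad T) (e : T ≃* T') : Bad T' := by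
  obtain ⟨k, c, α, a3, a1⟩ := h
  exact ⟨k, Nat.card_congr e.toEquiv ▸ c, MulAut.congr e α, by rw [← map_pow, a3, map_one],
    mt (MulAut.congr e).map_eq_one_iff.1 a1⟩

theorem bad_of {G : Type*} [Group G] [Finite G] {S : Subgroup G} {d r : G} (hS : PG 2 S) (hd : d ∈ N(S)) (d3 : d ^ 3 = 1)
    (rS : r ∈ S) (o : orderOf r = 2) (c : Commute r d) (h : ∀ s ∈ S, Commute s d → s ∈ zpowers r)
    (n : ¬ S ≤ zpowers r) : Bad S := by
  classical
  let α : MulAut S := S.normalizerMonoidHom ⟨d, hd⟩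
  have a3 : α ^ 3 = 1 := by rw [← map_pow, show (⟨d, hd⟩ : N(S)) ^ 3 = 1 from Subtype.ext d3, map_one]
  have fx : ∀ s : S, α s = s ↔ (s : G) ∈ zpowers r := fun s => by
    rw [Subtype.ext_iff]
    change d * s * d⁻¹ = s ↔ _
    rw [mul_inv_eq_iff_eq_mul]
    exact ⟨fun e => h s s.2 e.symm, fun e => by
      obtain ⟨i, e⟩ := e
      rw [← e]; exact (c.zpow_left i).symm⟩
  have := Fintype.ofFinite S
  have := Fact.mk p3
  have m := Equiv.Perm.card_fixedPoints_modEq (f := (α : S → S)) (p := 3) (n := 1) (by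
    funext s
    exact congrArg (fun β : MulAut S => β s) a3)
  have c2 : Fintype.card (Function.fixedPoints (α : S → S)) = 2 := by
    rw [← Nat.card_eq_fintype_card, ← o, ← Nat.card_zpowers, ← card_subgroupOf' (zpowers_le.2 rS)]
    exact Nat.card_congr (Equiv.subtypeEquivRight fx)
  obtain ⟨j, hj⟩ := hS.exists_card
  have l := card_lt (lt_of_le_of_ne (zpowers_le.2 rS) fun e => n e.ge)
  rw [c2, ← Nat.card_eq_fintype_card, hj] at m
  rw [Nat.card_zpowers, o, hj] at l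
  have : j % 2 = 1 := by
    by_contra e
    rw [show j = 2 * (j / 2) by omega, pow_mul, Nat.ModEq, Nat.pow_mod] at m
    simp at m
  have : j ≠ 1 := by rintro rfl; omega
  exact ⟨j / 2 - 1, by rw [hj]; congr 1; omega, α, a3, fun e => n fun s hs => (fx ⟨s, hs⟩).1 (by rw [e]; rfl)⟩

/-- `⟨b⟩` is a Sylow 3-subgroup with centralizer `⟨b⟩ × R` -/
structure Cb {H : Type*} [Group H] (b r : H) (R : Subgroup H) : Prop where
  b3 : b ^ 3 = 1
  b1 : b ≠ 1
  n9 : ¬ 9 ∣ Nat.card H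
  rb : r * b * r⁻¹ = b⁻¹
  R2 : PiG {2}ᶜ R
  Rb : ∀ k ∈ R, Commute k b
  rR : ∀ k ∈ R, Commute r k
  cent : ∀ x, Commute x b → ∃ (i : Fin 3) (k : H), k ∈ R ∧ x = b ^ i.1 * k

namespace Cb
variable {H : Type u} [Group H] [Finite H] {b r : H} {R : Subgroup H} (h : Cb b r R)
include h

theorem syl : Syl 3 (zpowers b) ⊤ := by
  refine syl_mk le_top (pg_zp h.b3) fun d => h.n9 ?_
  rw [← card_top, ← card_mul_relIndex (le_top (a := zpowers b)), card_zp h.b3 h.b1]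
  exact Nat.mul_dvd_mul_left 3 d

theorem odd {x : H} (c : Commute x b) : PiE {2}ᶜ x := by
  obtain ⟨i, k, hk, rfl⟩ := h.cent x c
  exact PiN.e_mul ((H11.TC.odd3 h.b3).e_pow _) (h.R2.elt hk) ((h.Rb k hk).pow_right _).symm.eq

theorem n6 (x : H) : orderOf x ≠ 6 := by
  intro e
  have e2 : orderOf (x ^ 3) = 2 := by rw [orderOf_pow, e]; rfl
  have k : ∀ g, Commute (g * x ^ 2 * g⁻¹) (g * x ^ 3 * g⁻¹) := fun g => ((Commute.refl x).pow_pow 2 3).conj g
  have o : ∀ g, ¬ PiE {2}ᶜ (g * x ^ 3 * g⁻¹) := fun g p => by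
    rw [PiE, orderOf_conj', e2] at p; exact p 2 Nat.prime_two dvd_rfl rfl
  rcases conj_of_syl h.syl h.b3 (mem_top (x ^ 2)) (by rw [← pow_mul]; exact (e ▸ pow_orderOf_eq_one x : x ^ 6 = 1)) with a | ⟨g, -, a | a⟩
  · have := e ▸ orderOf_dvd_of_pow_eq_one a
    omega
  · exact o g (h.odd (a ▸ k g).symm)
  · exact o g (h.odd (Commute.inv_left_iff.1 (a ▸ k g)).symm)

theorem re0 {x g : H} (c : Commute x b) (e : g * x * g⁻¹ = x⁻¹) (e' : g * b * g⁻¹ = b⁻¹) : x ^ 3 = 1 := by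
  obtain ⟨i, k, hk, rfl⟩ := h.cent x c
  obtain ⟨j, l, hl, a⟩ := h.cent (g * r⁻¹) (by
    have : r⁻¹ * b * r = b⁻¹ := by
      have := congrArg (fun y => r⁻¹ * y⁻¹ * r) h.rb
      simpa [mul_assoc] using this.symm
    calc g * r⁻¹ * b = g * (r⁻¹ * b * r) * r⁻¹ := by group
      _ = (g * b * g⁻¹)⁻¹ * (g * r⁻¹) := by rw [this]; group
      _ = _ := by rw [e', inv_inv])
  have gk : g * k * g⁻¹ = l * k * l⁻¹ := by
    rw [show g = b ^ j.1 * l * r by rw [← a]; group]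
    have b1 : Commute (b ^ j.1) (l * k * l⁻¹) := ((h.Rb _ (mul_mem (mul_mem hl hk) (inv_mem hl))).pow_right _).symm
    calc _ = b ^ j.1 * (l * (r * k * r⁻¹) * l⁻¹) * (b ^ j.1)⁻¹ := by group
      _ = _ := by rw [(h.rR k hk).mul_inv_cancel, b1.mul_inv_cancel]
  have ck := (h.Rb k hk).pow_right i.1
  have lk : l * k * l⁻¹ = k⁻¹ := by
    have : (b ^ i.1)⁻¹ * (l * k * l⁻¹) = (b ^ i.1)⁻¹ * k⁻¹ := by
      rw [← gk, ← ck.inv_inv.eq, ← mul_inv_rev, ← e, ← inv_pow, ← e', conj_pow]; group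
    exact mul_left_cancel this
  have l2 : Commute (l ^ 2) k := by
    have : l * k⁻¹ * l⁻¹ = k := by simpa [mul_assoc] using congrArg (·⁻¹) lk
    calc l ^ 2 * k = l * (l * k * l⁻¹) * l⁻¹ * l ^ 2 := by simp [sq, mul_assoc]
      _ = _ := by rw [lk, this]
  have lc : l ∈ C[k] := mem_of_cop (n := 2) (PiN.coprime_prime (h.R2.elt hl) Nat.prime_two).symm (mem_cent1.2 l2.eq)
  rw [mem_cent1.1 lc, mul_inv_cancel_right] at lk
  have k1 : k = 1 := PiN.e_eq_one (π := {2}) (((PiN.prime_pow Nat.prime_two 1)).dvd (orderOf_dvd_of_pow_eq_one (by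
    rw [pow_one, sq]; exact mul_eq_one_iff_eq_inv.2 lk))) (h.R2.elt hk)
  rw [k1, mul_one, ← pow_mul, mul_comm, pow_mul, h.b3, one_pow]

theorem re (x g : H) (e : g * x * g⁻¹ = x⁻¹) (d : 3 ∣ orderOf x) : orderOf x = 3 := by
  obtain ⟨m, hm⟩ := d
  have m0 : 0 < m := Nat.pos_of_ne_zero (by rintro rfl; exact (orderOf_pos x).ne' hm)
  have y1 : x ^ m ≠ 1 := pow_ne_one_of_lt_orderOf m0.ne' (by omega)
  have ey : g * x ^ m * g⁻¹ = (x ^ m)⁻¹ := by rw [← conj_pow, e, inv_pow]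
  have key : ∀ t, Commute (t * x * t⁻¹) b → t * g * t⁻¹ * b * (t * g * t⁻¹)⁻¹ = b⁻¹ → orderOf x = 3 := fun t c a => by
    have := h.re0 c (g := t * g * t⁻¹) (by rw [show (t * x * t⁻¹)⁻¹ = t * x⁻¹ * t⁻¹ by group, ← e]; group) a
    rw [conj_pow, conj_eq_one_iff] at this
    exact ord3 this (by rintro rfl; simp at y1)
  have cm : ∀ t, Commute (t * x * t⁻¹) (t * x ^ m * t⁻¹) := fun t => ((Commute.refl x).pow_right m).conj t
  rcases conj_of_syl h.syl h.b3 (mem_top (x ^ m)) (by rw [← pow_mul, mul_comm, ← hm, pow_orderOf_eq_one]) with a | ⟨t, -, a | a⟩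
  · exact (y1 a).elim
  · refine key t (a ▸ cm t) ?_
    rw [← a, show (t * x ^ m * t⁻¹)⁻¹ = t * (x ^ m)⁻¹ * t⁻¹ by group, ← ey]; group
  · refine key t (Commute.inv_right_iff.1 (a ▸ cm t)) ?_
    rw [← inv_inv b, ← a, inv_inv]
    calc _ = t * (g * x ^ m * g⁻¹)⁻¹ * t⁻¹ := by group
      _ = _ := by rw [ey, inv_inv]

theorem q0 (dl : DL.{u}) (hO : Oc {3}ᶜ (⊤ : Subgroup H) = ⊥) {S : Subgroup H} (hS : Syl 2 S ⊤) (bad : Bad S) : False := by
  let X := normalClosure ({b} : Set H)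
  have bX : b ∈ X := subset_normalClosure rfl
  have nX : X ⊴ ⊤ := normalIn_top
  have sX : Syl 3 (zpowers b) X := h.syl.of_le (zpowers_le.2 bX) le_top
  have cj : ∀ g, ∃ k ∈ X, k * (g * b * g⁻¹) * k⁻¹ = b ∨ k * (g * b * g⁻¹) * k⁻¹ = b⁻¹ := fun g =>
    (conj_of_syl sX h.b3 (nX.conj_mem (mem_top g) bX) (by rw [conj_pow, h.b3]; simp)).resolve_left
      (mt conj_eq_one_iff.1 h.b1)
  have oc : PiG {2}ᶜ C[b] := PiN.of_elt fun x hx => h.odd (mem_cent1.1 hx)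
  have : Nontrivial X := ⟨⟨⟨b, bX⟩, 1, fun e => h.b1 (congrArg Subtype.val e)⟩⟩
  have : IsSimpleGroup X := ⟨fun K hK => by
    have nK := normalIn_map_subtype K
    by_cases d : 3 ∣ #(K.map X.subtype)
    · have bK : b ∈ K.map X.subtype := zpowers_le.1 (le_of_prime_of_inf_ne_bot (by rw [card_zp h.b3 h.b1]; exact p3)
        ((sX.inf_normal nK).sne_bot p3 d))
      have : X ≤ K.map X.subtype := closure_le _ |>.2 fun y hy => by
        obtain ⟨_, e, c⟩ := Group.mem_conjugatesOfSet_iff.1 hy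
        rw [Set.mem_singleton_iff.1 e] at c
        obtain ⟨g, rfl⟩ := isConj_iff.1 c
        obtain ⟨k, hk, e | e⟩ := cj g
        · have := nK.conj_mem (inv_mem hk) (e.symm ▸ bK : k * (g * b * g⁻¹) * k⁻¹ ∈ _)
          simpa [mul_assoc] using this
        · have := nK.conj_mem (inv_mem hk) (e.symm ▸ inv_mem bK : k * (g * b * g⁻¹) * k⁻¹ ∈ _)
          simpa [mul_assoc] using this
      exact .inr (eq_top_iff.2 fun x _ => (mem_map_iff_mem X.subtype_injective).1 (this x.2))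
    · have := (le_Oc nK (PiN.of_not_dvd d)).trans ((Oc_le_Oc nX).trans hO.le)
      exact .inl ((map_eq_bot_iff_of_injective _ X.subtype_injective).1 (le_bot_iff.1 this))⟩
  by_cases ab : IsMulCommutative X
  · obtain ⟨k, c, -⟩ := bad
    have l := orb_le (K := S) (x := b) (S := {b, b⁻¹}) fun g _ => by
      obtain ⟨k, hk, e⟩ := cj g
      rwa [mul_comm_of_comm ab hk (nX.conj_mem (mem_top g) bX), mul_inv_cancel_right] at e
    have := card_inf_mul_relIndex C[b] S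
    rw [oc.inf_eq_bot' hS.pi, card_bot, c] at this
    have := Set.ncard_insert_le b {b⁻¹}
    rw [Set.ncard_singleton] at this
    have : 2 ^ 3 ≤ 2 ^ (2 * k + 3) := Nat.pow_le_pow_right two_pos (by omega)
    omega
  have := Fact.mk p3
  have := Fact.mk Nat.prime_two
  have d3 : 3 ∣ #X := card_zp h.b3 h.b1 ▸ card_dvd sX.le
  obtain ⟨P, hP⟩ := sX.exists_sylow
  obtain ⟨x0, n1, n2⟩ := SetLike.not_le_iff_exists.1 (H21.not_normalizer_le_centralizer ab P d3)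
  have i0 : (x0 : H) * b * (x0 : H)⁻¹ = b⁻¹ := by
    refine (norm_zp h.b3 h.b1 (hP ▸ le_normalizer_map _ (mem_map_of_mem _ n1))).resolve_left fun e => n2 ?_
    intro y hy
    have : (y : H) ∈ C[(x0 : H)] := (zpowers_le.2 (mem_cent1.2 (mul_inv_eq_iff_eq_mul.1 e).symm) : zpowers b ≤ _)
      (hP ▸ mem_map_of_mem _ hy)
    exact Subtype.ext (mem_cent1.1 this)
  have tp : X ⊔ C[b] = ⊤ := eq_top_iff.2 fun g _ => by
    obtain ⟨k, hk, e⟩ := cj g
    have : ∃ k ∈ X, k * g ∈ C[b] := by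
      rcases e with e | e
      · exact ⟨k, hk, mem_cent1.2 (by rw [← mul_inv_eq_iff_eq_mul]; exact Eq.trans (by group) e)⟩
      · refine ⟨x0 * k, mul_mem x0.2 hk, mem_cent1.2 ?_⟩
        rw [← mul_inv_eq_iff_eq_mul]
        calc _ = x0 * (k * (g * b * g⁻¹) * k⁻¹) * (x0 : H)⁻¹ := by group
          _ = ((x0 : H) * b * (x0 : H)⁻¹)⁻¹ := by rw [e]; group
          _ = b := by rw [i0, inv_inv]
    obtain ⟨k, hk, e⟩ := this
    simpa using mul_mem (mem_sup_left (inv_mem hk)) (mem_sup_right e)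
  have SX : S ≤ X := le_of_pi_of_relIndex (nX.norms le_top) le_top le_top hS.pi (by
    rw [← tp, relIndex_sup_of_norm (nX.norms le_top)]; exact oc.relIndex _)
  obtain ⟨T, hT⟩ := (hS.of_le SX le_top).exists_sylow
  obtain ⟨k, c, α, a3, a1⟩ := bad.equiv ((T.1.equivMapOfInjective _ X.subtype_injective).trans (MulEquiv.subgroupCongr hT)).symm
  refine dl X ab (fun x => by rw [← orderOf_injective _ X.subtype_injective]; exact h.n6 _) d3
    (fun d => h.n9 (d.trans (card_subgroup_dvd_card X))) (fun x g e d => ?_) T k c α a3 a1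
  rw [← orderOf_injective _ X.subtype_injective] at d ⊢
  exact h.re _ g (congrArg Subtype.val e) d

theorem q1 (dl : DL.{u}) (hO : PiG {2}ᶜ (Oc {3}ᶜ (⊤ : Subgroup H))) {S : Subgroup H} (hS : Syl 2 S ⊤) (bad : Bad S) :
    False := by
  set K := Oc {3}ᶜ (⊤ : Subgroup H)
  have nK : ∀ x, x ∈ N(K) := fun x => Oc_norm _ _ (mem_top x)
  have pK : PiG {3}ᶜ K := Oc_pi _ _
  have tp : quo K ⊤ = ⊤ := eq_top_iff.2 fun x _ => by
    obtain ⟨y, rfl⟩ := qmk_surj K x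
    exact mem_im_of (mem_top _)
  obtain ⟨e⟩ := quo_equiv (K := K) (H := S) (fun x _ => nK x) (hO.inf_eq_bot' hS.pi)
  refine q0 (b := qmk K ⟨b, nK b⟩) (r := qmk K ⟨r, nK r⟩) (R := quo K R) ⟨?_, ?_, ?_, ?_, h.R2.quo K, ?_, ?_, ?_⟩ dl
    (tp ▸ Oc_quo_Oc _ _) (tp ▸ hS.quo fun x _ => nK x) (bad.equiv e)
  · rw [← map_pow]; exact qmk_eq_one.2 (by simp [h.b3])
  · exact fun e => h.b1 (not_mem3 pK h.b3 (qmk_eq_one.1 e))
  · exact fun d => h.n9 (d.trans (by rw [← card_top, ← tp, ← card_top (G := H)]; exact card_quo_dvd _ _))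
  · rw [← map_inv, ← map_mul, ← map_mul, ← map_inv]; exact congrArg _ (Subtype.ext h.rb)
  · intro _ hk'
    obtain ⟨k, hk, rfl⟩ := mem_im.1 hk'
    exact Commute.map (Subtype.ext (h.Rb k hk).eq) _
  · intro _ hk'
    obtain ⟨k, hk, rfl⟩ := mem_im.1 hk'
    exact Commute.map (Subtype.ext (h.rR k hk).eq) _
  · intro x c
    obtain ⟨x, rfl⟩ := qmk_surj K x
    have := (qmk_eq_one (x := ⟨b, nK b⟩ * x * ⟨b, nK b⟩⁻¹ * x⁻¹)).1 (by
      simp only [map_mul, map_inv]; rw [← c.eq]; group)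
    obtain ⟨n, hn, e⟩ := lift_cent pK h.b3 (nK b) (g := (x : H)) this
    obtain ⟨i, k, hk, e⟩ := h.cent _ e
    refine ⟨i, qmk K ⟨k, nK k⟩, mem_im_of hk, ?_⟩
    rw [← map_pow, ← map_mul, show (⟨b, nK b⟩ ^ i.1 * ⟨k, nK k⟩ : N(K)) = ⟨n, nK n⟩ * x from Subtype.ext e.symm, map_mul,
      (qmk_eq_one (x := ⟨n, nK n⟩)).2 hn, one_mul]

end Cb

section
variable {G : Type u} [Group G] [Finite G] {D A A0 R Y : Subgroup G} {b d r : G}

/-- transfer into an abelian Sylow subgroup -/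
theorem trf (hS : Syl 3 A D) (ab : Ab A) : ∃ H, H ⊴ D ∧ ⁅D, D⁆ ≤ H ∧ (∀ x ∈ D, PiE {3}ᶜ x → x ∈ H) ∧
    ∀ a ∈ A, (∀ n ∈ D, n ∈ N(A) → Commute n a) → a ∈ H → a = 1 := by
  have := Fact.mk p3
  obtain ⟨P, rfl⟩ := hS.exists_sylow
  have : IsMulCommutative P := ⟨⟨fun x y => Subtype.ext (Subtype.ext
    (mul_comm_of_comm ab (mem_map_of_mem _ x.2) (mem_map_of_mem _ y.2)))⟩⟩
  let : CommGroup P := IsMulCommutative.instCommGroup
  let V := MonoidHom.transfer (MonoidHom.id P)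
  refine ⟨V.ker.map D.subtype, normalIn_map_subtype _, ?_, fun x hx p => ?_, ?_⟩
  · exact commutator_le.2 fun x hx y hy => ⟨⁅(⟨x, hx⟩ : D), ⟨y, hy⟩⁆, by
      rw [SetLike.mem_coe, MonoidHom.mem_ker, map_commutatorElement, commutatorElement_eq_one_iff_mul_comm, mul_comm], rfl⟩
  · refine ⟨⟨x, hx⟩, PiN.e_eq_one (π := {3}) ?_ (p.dvd ?_), rfl⟩
    · obtain ⟨k, e⟩ := P.2 (V ⟨x, hx⟩)
      exact (PiN.prime_pow p3 k).dvd (orderOf_dvd_of_pow_eq_one e)
    · exact (orderOf_map_dvd V _).trans (by rw [orderOf_mk])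
  · rintro _ ⟨a, ha, rfl⟩ c h
    have h := (mem_map_iff_mem D.subtype_injective).1 h
    rw [MonoidHom.mem_ker, MonoidHom.transfer_eq_pow _ a fun k g e => by
      obtain ⟨n, hn, e⟩ := P.conj_eq_normalizer_conj_of_mem (a ^ k) g (pow_mem ha k) e
      have : Commute n a := Subtype.ext (c n n.2 (le_normalizer_map _ (mem_map_of_mem _ hn))).eq
      rw [e, (this.pow_right k).inv_mul_cancel]] at h
    obtain ⟨k, e⟩ := P.2 ⟨a, ha⟩
    have := Nat.eq_one_of_dvd_coprimes ((Nat.Coprime.pow_left k ((Nat.Prime.coprime_iff_not_dvd p3).2 P.not_dvd_index)))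
      (orderOf_dvd_of_pow_eq_one (congrArg Subtype.val e)) (orderOf_dvd_of_pow_eq_one (congrArg Subtype.val h))
    rw [show a = 1 from orderOf_eq_one_iff.1 this, map_one]

theorem main (dl : DL.{u}) (rk : Rk G) (hS : Syl 3 A D) (c81 : #A = 81) (ab : Ab A) (e3 : ∀ a ∈ A, a ^ 3 = 1)
    (l0 : A0 ≤ A) (c27 : #A0 = 27) (fu : ∀ n ∈ D, n ∈ N(A) → n ∈ C(A0)) (b3 : b ^ 3 = 1) (b1 : b ≠ 1) (d0 : d ∈ A0)
    (rD : r ∈ D) (RD : R ≤ D) (o : orderOf r = 2) (rb : r * b * r⁻¹ = b⁻¹) (rd : Commute r d) (bD : b ∈ D)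
    (R6 : PiG {2, 3}ᶜ R) (Rb : ∀ k ∈ R, Commute k b) (rR : ∀ k ∈ R, Commute r k)
    (cb : ∀ x ∈ D, Commute x b → ∃ (i : Fin 3) (a k : G), a ∈ A0 ∧ k ∈ R ∧ x = b ^ i.1 * k * a)
    (cd : ∀ S, PG 2 S → S ≤ D → r ∈ S → ∀ s ∈ S, Commute s d → s ∈ zpowers r)
    (pY : PG 2 Y) (rY : r ∈ Y) (YD : Y ≤ D) (nY : A0 ≤ N(Y)) : Y ≤ zpowers r := by
  obtain ⟨H, nH, dH, pH, fH⟩ := trf hS ab
  have p2 : ∀ {S}, PG 2 S → S ≤ D → S ≤ H := fun p l x hx => pH x (l hx) ((p.elt hx).sing_ne (by decide))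
  have i0 : ∀ {K}, K ≤ H → K ⊓ A0 = ⊥ := fun l => eq_bot_iff.2 fun a ha =>
    fH a (l0 ha.2) (fun n h1 h2 => (mem_cent.1 (fu n h1 h2) a ha.2).symm) (l ha.1)
  have bH : b ∈ H := by
    have := dH (commutator_mem_commutator rD bD)
    rwa [commutatorElement_def, rb, ← mul_inv_rev, ← sq, show b ^ 2 = b⁻¹ from eq_inv_of_mul_eq_one_left (by
      rw [← pow_succ, b3]), inv_inv] at this
  have RH : R ≤ H := fun k hk => pH k (RD hk) ((R6.elt hk).compl_sing' (by simp))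
  have A0D := l0.trans hS.le
  have n9 : ¬ 9 ∣ #H := fun ⟨m, e⟩ => by
    have := card_dvd (sup_le nH.le A0D)
    rw [card_sup_of_disjoint (nH.norms A0D) (i0 le_rfl), e, c27] at this
    have := hS.dvd (PiN.prime_pow p3 5) (Dvd.dvd.trans ⟨m, by ring⟩ this)
    omega
  obtain ⟨S, YS, ⟨pS, SD, nS⟩, mx⟩ := (Set.toFinite {S : Subgroup G | PG 2 S ∧ S ≤ D ∧ A0 ≤ N(S)}).exists_le_maximal
    (a := Y) ⟨pY, YD, nY⟩
  have rS := YS rY
  have r1 : r ≠ 1 := by rintro rfl; simp at o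
  have nK : A0 ≤ N(H ⊓ N(S)) := norms_inf (nH.norms A0D) (norms_norm nS)
  have n3 : ¬ 3 ∣ #(H ⊓ N(S)) := fun ⟨m, e⟩ => by
    obtain ⟨P, hP⟩ := exists_syl 3 (D ⊓ N(S))
    have := card_dvd (sup_le (inf_le_inf_right N(S) nH.le) (le_inf A0D nS))
    rw [card_sup_of_disjoint nK (i0 inf_le_left), e, c27] at this
    have := Nat.le_of_dvd (card_pos _) (hP.dvd (PiN.prime_pow p3 4) (Dvd.dvd.trans ⟨m, by ring⟩ this))
    obtain ⟨g, -, l⟩ := hS.scj_le (hP.le.trans inf_le_left) hP.pi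
    have := rk S P pS (ne_bot_of_mem rS r1) (hP.le.trans inf_le_right) (comm_cj.1 (comm_mono ab l)) fun a ha => by
      have := e3 _ (l (conj_mem_cj.2 ha))
      rwa [conj_pow, conj_eq_one_iff] at this
    omega
  have pA : PG 3 A0 := hS.pi.of_le l0
  obtain ⟨T, hT, nT, ST⟩ := inv_syl_ge nK ((PiN.of_not_dvd n3).coprime' pA) (.inl pA.sol)
    (le_inf (p2 pS SD) le_normalizer) nS pS
  have sS : Syl 2 S H := syl_of_subnorm (le_antisymm ST (mx ⟨hT.pi, hT.le.trans (inf_le_left.trans nH.le), nT⟩ ST) ▸ hT)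
  have oO : PiG {2}ᶜ (Oc {3}ᶜ H) := by
    have nO := (nH.Oc {3}ᶜ).norms hS.le
    obtain ⟨T, hT, nT⟩ := inv_syl_exists 2 nO ((Oc_pi _ _).coprime' hS.pi) (.inl hS.pi.sol)
    by_cases e : T = ⊥
    · exact (e ▸ hT).pi'_of_eq_bot
    · have := rk T A hT.pi e nT ab e3
      omega
  by_contra n
  refine Cb.q1 (b := (⟨b, bH⟩ : H)) (r := ⟨r, p2 pS SD rS⟩) (R := R.subgroupOf H) ⟨Subtype.ext b3,
    fun e => b1 (congrArg Subtype.val e), n9, Subtype.ext rb, ?_, fun k hk => Subtype.ext (Rb k hk).eq,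
    fun k hk => Subtype.ext (rR k hk).eq, fun x c => ?_⟩ dl ?_ sS.subgroupOf_top
    ((bad_of pS (nS d0) (e3 d (l0 d0)) rS o rd (cd S pS SD rS) fun l => n (YS.trans l)).equiv
      (subgroupOfEquivOfLe sS.le).symm)
  · rw [PiG, card_subgroupOf' RH]; exact R6.compl_sing' (by simp)
  · obtain ⟨i, a, k, ha, hk, e⟩ := cb x (nH.le x.2) (congrArg Subtype.val c.eq)
    have : a ∈ H ⊓ A0 := ⟨by
      have := mul_mem (inv_mem (mul_mem (pow_mem bH i.1) (RH hk))) x.2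
      rwa [e, inv_mul_cancel_left] at this, ha⟩
    rw [i0 le_rfl, mem_bot] at this
    exact ⟨i, ⟨k, RH hk⟩, hk, Subtype.ext (by rw [e, this, mul_one]; rfl)⟩
  · rw [← subgroupOf_self, Oc_subgroupOf le_rfl, PiG, card_subgroupOf' (Oc_le _ _)]; exact oO

end

end H20.SX
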