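/-
S3159, chunk DD.
-/
import Cfsg.Agent.H20.SX3

set_option autoImplicit false
set_option linter.unusedSectionVars false
set_option synthInstance.maxSize 4096
set_option synthInstance.maxHeartbeats 200000
open Cfsg Subgroup H19 H23.F4 H26.SX
namespace H20.SX
universe u

theorem k1 : ∀ a, wt a = 1 → ∀ b, wt b = 1 → a + (b + b) = (0, 1, 2, 0) → ∀ c, wt c = 1 → a + b + c = (0, 1, 1, 1) →
    a = (0, 1, 0, 0) ∧ b = (0, 0, 1, 0) ∧ c = (0, 0, 0, 1) := by decide +kernel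
theorem k2 : ∀ a : t4, (∀ v, wt (ap4 (a, (0, 1, 0, 0), (0, 0, 1, 0), (0, 0, 0, 1)) v) = 1 ↔ wt v = 1) →
    cmp4 (a, (0, 1, 0, 0), (0, 0, 1, 0), (0, 0, 0, 1)) (a, (0, 1, 0, 0), (0, 0, 1, 0), (0, 0, 0, 1)) = id4 ∧
    ∀ t, ap4 (a, (0, 1, 0, 0), (0, 0, 1, 0), (0, 0, 0, 1)) (0, t) = (0, t) := by decide +kernel

theorem cen_zb {g : Sp} (h1 : Commute g zz) (h2 : Commute g bb) : g ∈ AM := by
  have key : ∀ d : Sp, (∀ v ∈ [e1, f1, e2, f2, e3, f3], ∃ k ∈ [bb, zz * bb, zz * bb⁻¹], k • v = v ∧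
      ((∀ w : V, k • w = w → d • w = w) ∨ ∀ w : V, k • w = w → d • w = zz • w)) → Commute g d := fun d l => by
    have : ∀ v ∈ [e1, f1, e2, f2, e3, f3], (g * d) • v = (d * g) • v := fun v hv => by
      obtain ⟨k, hk, e, a⟩ := l v hv
      have c : Commute g k := by
        simp only [List.mem_cons, List.not_mem_nil, or_false] at hk
        rcases hk with rfl | rfl | rfl
        exacts [h2, h1.mul_right h2, h1.mul_right h2.inv_right]
      rcases a with a | a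
      · rw [mul_smul, mul_smul, a v e, a _ (cm_fix c e)]
      · rw [mul_smul, mul_smul, a v e, a _ (cm_fix c e), cm h1]
    exact ext6 (this _ (by simp)) (this _ (by simp)) (this _ (by simp)) (this _ (by simp)) (this _ (by simp)) (this _ (by simp))
  obtain ⟨t, e⟩ := centA (key d1 (by decide +kernel)) (key d2 (by decide +kernel)) (key d3 (by decide +kernel))
  exact ⟨t, e.symm⟩

theorem cen23 {g : Sp} (h2 : Commute g d2) (h3 : Commute g d3) : Commute g d1 ∨ Commute (T e1 * g) d1 := by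
  have k : ∀ a : V, (d2 * d3) • a = a → ∀ c : V, (d2 * d3) • c = c → ω a c = true →
      T a * T c = d1 ∨ T e1 * (T a * T c) * (T e1)⁻¹ = d1 := by decide +kernel
  have e : g * d1 * g⁻¹ = T (g • e1) * T (g • f1) := by rw [← conj_T, ← conj_T, d1]; group
  rcases k _ (cm_fix (h2.mul_right h3) (v := e1) (by decide +kernel)) _ (cm_fix (h2.mul_right h3) (v := f1) (by decide +kernel))
    (by rw [ω_smul]; decide) with a | a
  · exact .inl (mul_inv_eq_iff_eq_mul.1 (e.trans a))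
  · exact .inr (mul_inv_eq_iff_eq_mul.1 (Eq.trans (by rw [← e]; group) a))

theorem two_AM {g : Sp} (p : PiE {2} g) (h1 : Commute g d1) (h2 : Commute g d2) (h3 : Commute g d3) : g = 1 := by
  obtain ⟨t, rfl⟩ := centA h1 h2 h3
  exact H11.TC.two_odd p (by decide : Odd 3) (dA_cube t)

theorem AM_le' {M : Subgroup Sp} (h1 : d1 ∈ M) (h2 : zz ∈ M) (h3 : bb ∈ M) : AM ≤ M := by
  have a : d2 ∈ M := (by decide +kernel : bb⁻¹ * d1 = d2) ▸ mul_mem (inv_mem h3) h1
  exact AM_le h1 a ((by decide +kernel : (d1 * d2)⁻¹ * zz = d3) ▸ mul_mem (inv_mem (mul_mem h1 a)) h2)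

theorem dd : DD.{u} := by
  intro api dl G _ _ b r φ R rk h Y pY rY Yz Yb nY
  have w := h.toWc
  have ea0 : ∀ t, ea b φ (0, t) = φ (dA t) := fun t => by simp [ea]
  have b3 : b ^ 3 = 1 := w.o3 ▸ pow_orderOf_eq_one b
  have b1 : b ≠ 1 := fun e => by simpa [e] using w.o3
  obtain ⟨c81, ab, e3⟩ := api.cA w
  have mD : ∀ x, (∀ g, Commute x (φ g)) → x ∈ C[φ zz] ⊓ C[φ bb] := fun x c => ⟨mem_cent1.2 (c _).eq, mem_cent1.2 (c _).eq⟩
  have fu : ∀ n ∈ C[φ zz] ⊓ C[φ bb], n ∈ N(AA b φ) → Ac b φ (n * n) id4 ∧ n ∈ C(AM.map φ) := fun n hn h1 => by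
    obtain ⟨⟨a0, a1, a2, a3⟩, m⟩ := (api.nac w n).1 h1
    have l := fun v => (h.lg _).symm.trans ((api.lga w m v).trans (h.lg v))
    have fx : ∀ t, n ∈ C[φ (dA t)] → ap4 (a0, a1, a2, a3) (0, t) = (0, t) := fun t c =>
      api.einj w (by rw [← m, ea0, mem_cent1.1 c, mul_inv_cancel_right])
    obtain ⟨rfl, rfl, rfl⟩ := k1 a1 (by simpa [ap4] using (l (0, 1, 0, 0)).2 rfl) a2 (by simpa [ap4] using (l (0, 0, 1, 0)).2 rfl)
      (by simpa [ap4, two_smul] using fx (1, 2, 0) ((by decide +kernel : bb = dA (1, 2, 0)) ▸ hn.2)) a3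
      (by simpa [ap4] using (l (0, 0, 0, 1)).2 rfl)
      (by simpa [ap4] using fx (1, 1, 1) ((by decide +kernel : zz = dA (1, 1, 1)) ▸ hn.1))
    obtain ⟨e1, e2⟩ := k2 a0 l
    refine ⟨e1 ▸ api.amul w m m, mem_cent.2 ?_⟩
    rintro _ ⟨_, ⟨t, rfl⟩, rfl⟩
    have := m (0, t)
    rw [e2, ea0] at this
    exact (mul_inv_eq_iff_eq_mul.1 this).symm
  have A0D : AM.map φ ≤ C[φ zz] ⊓ C[φ bb] := by
    rintro _ ⟨_, ⟨t, rfl⟩, rfl⟩
    exact ⟨mem_cent1.2 (((by decide +kernel : ∀ t, Commute (dA t) zz) t).map φ).eq,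
      mem_cent1.2 (((by decide +kernel : ∀ t, Commute (dA t) bb) t).map φ).eq⟩
  have hS : Syl 3 (AA b φ) (C[φ zz] ⊓ C[φ bb]) := by
    refine syl_pow (m := 2 * #R) (Nat.Coprime.mul_left (by decide) (PiN.coprime_prime (w.R6.compl_sing' (by simp)) p3))
      (pg_of_pow p3 e3) (sup_le (zpowers_le.2 (mD b w.cb)) A0D) fun k hk hn => ?_
    obtain ⟨v, x, hx, e⟩ := api.cen w _ (fu k hk hn).1
    have : Commute (ea b φ v) x := ((w.Rb x hx).pow_right _).mul_right (w.RL x hx _) |>.symm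
    rw [pow_mul, sq, e, this.mul_pow, (orderOf_dvd_iff_pow_eq_one.1 (orderOf_dvd_card' hx)), mul_one]
    exact pow_mem ((api.mem w _).2 ⟨v, rfl⟩) _
  have d0 : φ d1 ∈ AM.map φ := mem_map_of_mem _ ⟨_, dA1⟩
  refine main dl rk hS c81 ab e3 le_sup_right (by rw [card_map_of_injective w.inj, card_AM]) (fun n a c => (fu n a c).2)
    b3 b1 d0 (mD r h.rL) (fun k hk => mD k (w.RL k hk)) (orderOf_of_pow Nat.prime_two (by rw [sq, h.rr]) ?_) h.rb (h.rL _)
    (mD b w.cb) w.R6 w.Rb h.rR (fun x hx c => ?_) (fun S pS SD rS s hs c => ?_) pY rY (le_inf Yz Yb)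
    (map_le_iff_le_comap.2 (AM_le' nY (cent_le_norm _ (le_cent1_iff.1 Yz)) (cent_le_norm _ (le_cent1_iff.1 Yb))))
  · rintro rfl
    exact b1 (eq_one23 (mul_eq_one_iff_eq_inv.2 (by simpa using h.rb)) b3)
  · obtain ⟨i, k, g, hk, e⟩ := w.cent x c
    have : φ g ∈ C[φ zz] ⊓ C[φ bb] := by
      have := mul_mem (inv_mem (mul_mem (pow_mem (mD b w.cb) i.1) (mD k (w.RL k hk)))) hx
      rwa [e, inv_mul_cancel_left] at this
    exact ⟨i, φ g, k, mem_map_of_mem _ (cen_zb ((comm_map w.inj).1 (mem_cent1.1 this.1)) ((comm_map w.inj).1 (mem_cent1.1 this.2))),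
      hk, e⟩
  · obtain ⟨ψ, co⟩ := api.co h.toFc h.nb (a := e1) (c := f1) (by decide)
    have w' := co.fc.toWc
    obtain ⟨g, rfl⟩ := api.m2 w' s c (pS.elt hs)
    have : AM ≤ C[ψ g].comap φ := AM_le' (mem_cent1.2 c.symm.eq) (mem_cent1_symm.1 (SD hs).1) (mem_cent1_symm.1 (SD hs).2)
    have c2 : Commute g d2 := (comm_map w'.inj).1 (by
      rw [co.ag d2 (by decide +kernel) (by decide +kernel)]; exact (mem_cent1.1 (this ⟨_, dA2⟩)).symm)
    have c3 : Commute g d3 := (comm_map w'.inj).1 (by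
      rw [co.ag d3 (by decide +kernel) (by decide +kernel)]; exact (mem_cent1.1 (this ⟨_, dA3⟩)).symm)
    have p : ∀ g, ψ g ∈ S → PiE {2} g := fun g hg => by rw [PiE, ← orderOf_injective ψ w'.inj]; exact pS.elt hg
    rcases cen23 c2 c3 with a | a
    · rw [two_AM (p g hs) a c2 c3, map_one]; exact one_mem _
    · have := two_AM (p _ (by rw [map_mul, co.ha]; exact mul_mem rS hs)) a
        ((by decide +kernel : Commute (T e1) d2).mul_left c2) ((by decide +kernel : Commute (T e1) d3).mul_left c3)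
      rw [eq_inv_of_mul_eq_one_right this, map_inv, co.ha]
      exact inv_mem (mem_zpowers r)

end H20.SX
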