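/-
S3159, chunk AFF: the elements `u₁, u₂, u₃`.
-/
import Cfsg.Agent.H26.SX0
import Cfsg.Agent.H25.L7e

set_option autoImplicit false
set_option linter.unusedSectionVars false
set_option synthInstance.maxSize 4096
set_option synthInstance.maxHeartbeats 200000
open Cfsg Subgroup H19 H23.F4 H26.SX
open H25.L7 (Xv cmc cmC mkC cjm cm_of cj_cm cube tr_pow cz1 cmi inv3 sq3 pg_z)
open scoped commutatorElement
namespace H20.SX
universe u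

section gen
variable {G : Type*} [Group G] [Finite G]

theorem tr3 {T K : Subgroup G} {b : G} (hT : Syl 3 T ⊤) (nK : K ⊴ T) (bT : b ∈ T) (b3 : b ^ 3 = 1) (nb : b ∉ K)
    (le : T ≤ K ⊔ zpowers b) (fus : ∀ g, g * b * g⁻¹ ∈ T → g * b * g⁻¹ * b⁻¹ ∈ K) :
    ∃ N : Subgroup G, N.Normal ∧ N.index = 3 := by
  have hN := nK.subgroupOf
  have gen : ∀ q : T ⧸ K.subgroupOf T, q ∈ zpowers (QuotientGroup.mk' (K.subgroupOf T) ⟨b, bT⟩) := fun q => by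
    obtain ⟨t, rfl⟩ := QuotientGroup.mk'_surjective _ q
    obtain ⟨k, hk, _, ⟨i, rfl⟩, e⟩ := (mem_sup_of_norm (nK.norms (zpowers_le.2 bT))).1 (le t.2)
    refine ⟨i, ?_⟩
    rw [show t = ⟨k, nK.le hk⟩ * ⟨b, bT⟩ ^ i from Subtype.ext e, map_mul, map_zpow,
      show QuotientGroup.mk' (K.subgroupOf T) ⟨k, nK.le hk⟩ = 1 from (QuotientGroup.eq_one_iff _).2 hk, one_mul]
  have : IsCyclic (T ⧸ K.subgroupOf T) := ⟨⟨_, gen⟩⟩
  let _ : CommGroup (T ⧸ K.subgroupOf T) := IsCyclic.commGroup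
  set φ := QuotientGroup.mk' (K.subgroupOf T) with hφ
  have o : orderOf (φ ⟨b, bT⟩) = 3 := ord3 (by rw [← map_pow, show (⟨b, bT⟩ : T) ^ 3 = 1 from Subtype.ext b3, map_one])
    fun e => nb ((QuotientGroup.eq_one_iff (⟨b, bT⟩ : T)).1 e)
  have tr := tr_pow φ b (φ ⟨b, bT⟩) fun k s h => by
    have e : s⁻¹ * b ^ k * s = (s⁻¹ * b * s⁻¹⁻¹) ^ k := by rw [conj_pow, inv_inv]
    by_cases h3 : 3 ∣ k
    · obtain ⟨k, rfl⟩ := h3
      rw [← map_pow]; exact congrArg _ (Subtype.ext (by simp [pow_mul, b3]))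
    have m : s⁻¹ * b * s⁻¹⁻¹ ∈ T := mem_of_pow_mem ((Nat.Prime.coprime_iff_not_dvd p3).2 h3).symm
      (((pg_zp b3).elt (mem_zpowers b)).e_conj _) (e ▸ h)
    have : φ ⟨_, m⟩ = φ ⟨b, bT⟩ := by
      rw [← mul_inv_eq_one, ← map_inv, ← map_mul]
      exact (QuotientGroup.eq_one_iff _).2 (fus _ m)
    rw [← this, ← map_pow]; exact congrArg _ (Subtype.ext e)
  refine ⟨(MonoidHom.transfer φ).ker, inferInstance, ?_⟩
  have c : Nat.card (T ⧸ K.subgroupOf T) = 3 := by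
    rw [← o, ← Nat.card_zpowers, show zpowers (φ ⟨b, bT⟩) = ⊤ from eq_top_iff.2 fun q _ => gen q, card_top]
  rw [index_ker]
  refine ((Nat.dvd_prime p3).1 (c ▸ card_subgroup_dvd_card _)).resolve_left fun e => ?_
  have := (card_eq_one.1 e).le ⟨b, tr⟩
  exact hT.not_dvd p3 (by rw [relIndex_top_right, ← o]; exact orderOf_dvd_of_pow_eq_one this)

theorem h1 {U U1 U2 U3 : Subgroup G} {γ a1 a2 a3 : G} (ab : Ab U) (l1 : U1 ≤ U) (l3 : U3 ≤ U) (l2 : U2 ≤ U)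
    (c1 : ∀ x ∈ U1, γ * x * γ⁻¹ ∈ U2) (c2 : ∀ x ∈ U2, γ * x * γ⁻¹ ∈ U3) (c3 : ∀ x ∈ U3, γ * x * γ⁻¹ ∈ U1)
    (ind : ∀ x ∈ U1, ∀ y ∈ U2, ∀ z ∈ U3, x * y * z = 1 → x = 1) (g3 : γ ^ 3 = 1) (m1 : a1 ∈ U1) (m2 : a2 ∈ U2)
    (m3 : a3 ∈ U3) (e : (a1 * a2 * a3 * γ) ^ 3 = 1) : ∃ w ∈ U, w * (a1 * a2 * a3 * γ) * w⁻¹ = γ := by
  have q := mul_mem m3 (c2 _ m2)
  have a := mul_mem m1 (c3 _ q)
  have k : (a2 * (a3 * (γ * a2 * γ⁻¹)))⁻¹ * (a1 * a2 * a3 * γ) * (a2 * (a3 * (γ * a2 * γ⁻¹)))⁻¹⁻¹ =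
      a1 * (γ * (a3 * (γ * a2 * γ⁻¹)) * γ⁻¹) * γ := by
    rw [mul_comm_of_comm ab (l1 m1) (l2 m2)]
    calc _ = (a3 * (γ * a2 * γ⁻¹))⁻¹ * (a1 * (a3 * (γ * a2 * γ⁻¹))) * γ * (a3 * (γ * a2 * γ⁻¹)) := by group
      _ = _ := by rw [mul_comm_of_comm ab (l1 m1) (l3 q)]; group
  refine ⟨_, inv_mem (mul_mem (l2 m2) (l3 q)), k.trans ?_⟩
  have : (a1 * (γ * (a3 * (γ * a2 * γ⁻¹)) * γ⁻¹) * γ) ^ 3 = 1 := by rw [← k, conj_pow, e]; group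
  generalize a1 * (γ * (a3 * (γ * a2 * γ⁻¹)) * γ⁻¹) = x at a this
  rw [ind x a _ (c1 _ a) _ (c2 _ (c1 _ a)) (by
    calc _ = (x * γ) ^ 3 * (γ ^ 3)⁻¹ := by simp only [pow_three]; group
      _ = 1 := by rw [this, g3]; simp), one_mul]
end gen

abbrev Dm {G : Type*} [Group G] (φ : Sp →* G) : Subgroup G := AM.map φ

/-- `u` multiplies `b` by `d`, is inverted by `s` and centralized by `s', s''` -/
structure Uw {G : Type*} [Group G] (b : G) (φ : Sp →* G) (R : Subgroup G) (u : G) (d s s' s'' : Sp) : Prop where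
  xv : Xv (Dm φ) b u (φ d)
  cR : u ∈ C(R)
  i1 : φ s * u * (φ s)⁻¹ = u⁻¹
  c2 : Commute u (φ s')
  c3 : Commute u (φ s'')

theorem nT1 : T e1 ∈ N(AM) := mem_norm_of_cj_le fun _ hx => by
  obtain ⟨_, ⟨t, rfl⟩, rfl⟩ := mem_cj'.1 hx; exact ⟨_, (mg_conj 0 t).symm⟩
theorem nT2 : T e2 ∈ N(AM) := mem_norm_of_cj_le fun _ hx => by
  obtain ⟨_, ⟨t, rfl⟩, rfl⟩ := mem_cj'.1 hx; exact ⟨_, (mg_conj 1 t).symm⟩
theorem nT3 : T e3 ∈ N(AM) := mem_norm_of_cj_le fun _ hx => by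
  obtain ⟨_, ⟨t, rfl⟩, rfl⟩ := mem_cj'.1 hx; exact ⟨_, (mg_conj 2 t).symm⟩

section
variable (api : Api.{u}) {G : Type u} [Group G] [Finite G] {b c g y n u : G} {φ : Sp →* G} {R : Subgroup G} (w : Wc b φ R)
theorem mD (t : tA) : φ (dA t) ∈ Dm φ := mem_map_of_mem _ ⟨t, rfl⟩
theorem m1 : φ d1 ∈ Dm φ := dA1 ▸ mD _
theorem m2 : φ d2 ∈ Dm φ := dA2 ▸ mD _
theorem m3 : φ d3 ∈ Dm φ := dA3 ▸ mD _
theorem D3 (h : y ∈ Dm φ) : y ^ 3 = 1 := by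
  obtain ⟨_, ⟨t, rfl⟩, rfl⟩ := h; exact map3 (dA_cube t)
theorem DC (h : y ∈ Dm φ) : y ∈ C(Dm φ) := by
  obtain ⟨_, ⟨t, rfl⟩, rfl⟩ := h
  refine mkC ?_
  rintro _ ⟨_, ⟨s, rfl⟩, rfl⟩; exact (dA_comm t s).map φ
omit [Finite G] in
theorem mcj (x y : Sp) : φ x * φ y * (φ x)⁻¹ = φ (x * y * x⁻¹) := by simp only [map_mul, map_inv]
theorem ea0 (t : tA) : ea b φ (0, t) = φ (dA t) := by simp [ea]
include w
theorem b3 : b ^ 3 = 1 := w.o3 ▸ pow_orderOf_eq_one b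
theorem bC : b ∈ C(Dm φ) := mkC (by rintro _ ⟨g, -, rfl⟩; exact w.cb g)
theorem fb (k : Sp) : φ k * b * (φ k)⁻¹ = b := cjm (w.cb k).symm
theorem fR (k : Sp) : φ k ∈ C(R) := mkC fun x hx => (w.RL x hx k).symm
theorem ea1 (t : tA) : ea b φ (1, t) = φ (dA t) * b := by simp [ea, (w.cb _).eq]
theorem Uw.cj {d s s' s'' k : Sp} (h : Uw b φ R u d s s' s'') (hk : k ∈ N(AM)) :
    Uw b φ R (φ k * u * (φ k)⁻¹) (k * d * k⁻¹) (k * s * k⁻¹) (k * s' * k⁻¹) (k * s'' * k⁻¹) :=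
  ⟨mcj (φ := φ) k d ▸ h.xv.cj (norm_map hk) (fb w k), mul_mem (mul_mem (fR w k) h.cR) (inv_mem (fR w k)), by
    rw [← mcj, conj_inv, conj_inv, conj_mul, conj_mul, h.i1], mcj (φ := φ) k s' ▸ cj_cm _ h.c2, mcj (φ := φ) k s'' ▸ cj_cm _ h.c3⟩
theorem Uw.r2 (h : Uw b φ R u d1 (T e1) (T e2) (T e3)) : Uw b φ R (φ ρ * u * (φ ρ)⁻¹) d2 (T e2) (T e3) (T e1) := by
  convert h.cj w ρ_norm <;> decide +kernel
theorem Uw.r3 (h : Uw b φ R u d2 (T e2) (T e3) (T e1)) : Uw b φ R (φ ρ * u * (φ ρ)⁻¹) d3 (T e3) (T e1) (T e2) := by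
  convert h.cj w ρ_norm <;> decide +kernel
include api
theorem xac {t : tA} (h : Xv (Dm φ) b g (φ (dA t))) : Ac b φ g ((1, t), (0, 1, 0, 0), (0, 0, 1, 0), (0, 0, 0, 1)) :=
  api.ac w (by rw [h.2.2, ea1 w]) (by rw [cjm (cmC h.1 m1), ea0, dA1]) (by rw [cjm (cmC h.1 m2), ea0, dA2])
    (by rw [cjm (cmC h.1 m3), ea0, dA3])
theorem xR (h : Xv (Dm φ) b g y) : g ∈ N(R) := by
  obtain ⟨_, ⟨t, rfl⟩, rfl⟩ := h.2.1
  exact mem_norm_iff_cj.2 (api.nR w (xac api w h))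
theorem xcen (h : Xv (Dm φ) b c 1) : ∃ a ∈ AA b φ, ∃ k ∈ R, c = a * k ∧ Commute a k := by
  obtain ⟨v, k, hk, e⟩ := api.cen w c (xac api w (t := 0) (by rwa [dA_zero, map_one]))
  exact ⟨_, (api.mem w _).2 ⟨v, rfl⟩, k, hk, e, (((w.Rb k hk).pow_right _).mul_right (w.RL k hk _)).symm⟩
theorem xodd (h : Xv (Dm φ) b c 1) : PiE {2}ᶜ c := by
  obtain ⟨a, ha, k, hk, rfl, e⟩ := xcen api w h
  exact PiN.e_mul (H11.TC.odd3 ((api.cA w).2.2 a ha)) ((w.R6.elt hk).compl_sing' (by simp)) e.eq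
theorem modC (hn : n ∈ N(Dm φ)) (hR : n ∈ C(R)) (e : ⁅b, n⁆ ∈ Dm φ) (h : Xv (Dm φ) b c 1) : ⁅c, n⁆ ∈ Dm φ := by
  obtain ⟨a, ha, k, hk, rfl, -⟩ := xcen api w h
  have : AA b φ ≤ cz1 (Dm φ) n := sup_le (zpowers_le.2 ⟨cent_le_norm _ (bC w), e⟩) fun z hz => ⟨le_normalizer hz, by
    rw [commutatorElement_def, mul_assoc, mul_assoc, ← mul_assoc n]
    exact mul_mem hz (conj_mem_of_norm hn (inv_mem hz))⟩
  exact (mul_mem (this ha) (show k ∈ cz1 (Dm φ) n from ⟨norm_of_comm (w.RL k hk), by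
    rw [(cmC hR hk).symm.commutator_eq]; exact one_mem _⟩)).2
theorem keyL {σ : Sp} (hσ : σ ∈ N(AM)) (hu : Xv (Dm φ) b u y) (uR : u ∈ C(R)) (h : Xv (Dm φ) b c 1)
    (e : φ σ * c * (φ σ)⁻¹ = u⁻¹ * c⁻¹ * u) : c ∈ Dm φ ∧ φ σ * c * (φ σ)⁻¹ = c⁻¹ := by
  have y1 := modC api w (norm_map hσ) (fR w σ) (by rw [(w.cb σ).commutator_eq]; exact one_mem _) h
  have y2 := modC api w (cent_le_norm _ hu.inv.1) (inv_mem uR) (cmi (by
    rw [commutatorElement_def, hu.inv.2.2, mul_inv_cancel_right]; exact hu.inv.2.1)) h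
  have : c ∈ Dm φ := mem_of_cop (n := 2) ((xodd api w h).coprime_prime Nat.prime_two).symm (by
    convert mul_mem (conj_mem_of_norm (cent_le_norm _ h.1) y2) y1 using 1
    rw [show ⁅c, φ σ⁆ = c * (φ σ * c * (φ σ)⁻¹)⁻¹ by rw [commutatorElement_def]; group, e, commutatorElement_def, sq]; group)
  exact ⟨this, by rw [e, (cmC hu.1 this).inv_right.inv_mul_cancel]⟩
theorem key1 (hu : Xv (Dm φ) b u y) (uR : u ∈ C(R)) (h : Xv (Dm φ) b c 1)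
    (e : φ (T e1) * c * (φ (T e1))⁻¹ = u⁻¹ * c⁻¹ * u) : ∃ i : Fin 3, c = φ d1 ^ i.1 := by
  obtain ⟨⟨_, ⟨t, rfl⟩, rfl⟩, e⟩ := keyL api w nT1 hu uR h e
  rw [mcj, ← map_inv] at e
  exact ⟨t.1, by rw [← map_pow, (by decide +kernel : ∀ t, T e1 * dA t * (T e1)⁻¹ = (dA t)⁻¹ → dA t = d1 ^ t.1.1) t (w.inj e)]⟩

theorem exU (h : Wm b φ nA) : ∃ u, Uw b φ R u d1 (T e1) (T e2) (T e3) := by
  obtain ⟨n, h⟩ := h
  have x : Xv (Dm φ) b n (φ d1) := ⟨mkC (by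
    rintro _ ⟨_, ⟨t, rfl⟩, rfl⟩
    refine cm_of ?_
    rw [← ea0 (b := b), h, (by decide +kernel : ∀ t, ap4 nA (0, t) = (0, t))]), m1, by
      have := h (1, 0)
      rwa [ea1 w, dA_zero, map_one, one_mul, show ap4 nA (1, 0) = (1, 1, 0, 0) by decide +kernel, ea1 w, dA1] at this⟩
  have c23 : Commute (φ (T e2)) (φ (T e3)) := (comm_TT.2 (by decide)).map φ
  have l : zpowers (φ (T e2)) ⊔ zpowers (φ (T e3)) ≤ N(Dm φ) ⊓ C[b] ⊓ C[φ d1] := sup_le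
    (zpowers_le.2 ⟨⟨norm_map nT2, cmc.2 (w.cb _).symm⟩, cmc.2 ((by decide +kernel : Commute (T e2) d1).map φ)⟩)
    (zpowers_le.2 ⟨⟨norm_map nT3, cmc.2 (w.cb _).symm⟩, cmc.2 ((by decide +kernel : Commute (T e3) d1).map φ)⟩)
  have p : PG 2 (zpowers (φ (T e2)) ⊔ zpowers (φ (T e3))) :=
    (pg_z (mapT _)).sup (pg_z (mapT _)) (zpowers_le.2 (cent1_le_norm_zpowers _ (cmc.2 c23.symm)))
  obtain ⟨c, hc, k⟩ := exists_mul_mem_cent (H := C(Dm φ) ⊓ C[b]) (k := n)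
    (fun a ha => norm_inf (norm_le_norm_cent _ (l ha).1.1) (norm_c1 (cmc.1 (l ha).1.2)))
    (PiN.coprime' (PiN.of_elt fun c hc => xodd api w (Xv.one' hc.1 (cmc.1 hc.2))) p) (.inl p.sol) fun a ha => by
      have := (x.cj (l ha).1.1 (cjm (cmc.1 (l ha).1.2))).mul x.inv
      rw [cjm (cmc.1 (l ha).2), inv_mul_cancel] at this
      exact ⟨this.1, cmc.2 this.cm⟩
  have x := (Xv.one' hc.1 (cmc.1 hc.2)).mul x
  generalize c * n = τ at x k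
  have k2 := cmC k (mem_sup_left (mem_zpowers _))
  have k3 := cmC k (mem_sup_right (mem_zpowers _))
  refine ⟨φ (T e1) * τ * (φ (T e1))⁻¹ * τ⁻¹, ?_, ?_, ?_, ?_, ?_⟩
  · convert (x.cj (norm_map nT1) (fb w _)).mul x.inv using 1
    rw [mul_one, mcj, ← map_inv, ← map_mul]; exact congrArg _ (by decide +kernel)
  · rw [mul_assoc, mul_assoc, ← mul_assoc τ]
    exact mul_mem (fR w _) (conj_mem_of_norm (norm_le_norm_cent _ (xR api w x)) (inv_mem (fR w _)))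
  · rw [← map_inv, T_inv]
    calc _ = (φ (T e1) * φ (T e1)) * τ * φ (T e1) * τ⁻¹ * φ (T e1) := by group
      _ = _ := by rw [mapT, mul_inv_rev, mul_inv_rev, mul_inv_rev, ← map_inv, T_inv]; group
  · have := (comm_TT.2 (by decide : ω e1 e2 = false)).map φ
    exact ((this.mul_left k2).mul_left this.inv_left).mul_left k2.inv_left
  · have := (comm_TT.2 (by decide : ω e1 e3 = false)).map φ
    exact ((this.mul_left k3).mul_left this.inv_left).mul_left k3.inv_left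

theorem com {v : G} (h : Uw b φ R u d1 (T e1) (T e2) (T e3)) (h' : Uw b φ R v d2 (T e2) (T e3) (T e1)) : Commute u v := by
  have x : Xv (Dm φ) b ⁅u, v⁆ 1 := by
    have := ((h.xv.mul h'.xv).mul h.xv.inv).mul h'.xv.inv
    rwa [(cmC (DC m2) m1).eq, inv_mul_cancel_left, inv_mul_cancel] at this
  obtain ⟨⟨_, ⟨t, rfl⟩, e⟩, e1⟩ := keyL api w nT1 h.xv h.cR x (by
    rw [conjugate_commutatorElement, h.i1, cjm h'.c3.symm]; simp only [commutatorElement_def]; group)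
  obtain ⟨-, e2⟩ := keyL api w nT2 h'.xv h'.cR x (by
    rw [conjugate_commutatorElement, h'.i1, cjm h.c2.symm]; simp only [commutatorElement_def]; group)
  rw [← e, mcj, ← map_inv] at e1 e2
  rw [(by decide +kernel : ∀ t, T H23.F4.e1 * dA t * (T H23.F4.e1)⁻¹ = (dA t)⁻¹ → T H23.F4.e2 * dA t * (T H23.F4.e2)⁻¹ = (dA t)⁻¹ →
    dA t = 1) t (w.inj e1) (w.inj e2), map_one] at e
  exact commutatorElement_eq_one_iff_commute.1 e.symm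

theorem cub (h : Uw b φ R u d1 (T e1) (T e2) (T e3)) : ∃ i : Fin 3, u ^ 3 = φ d1 ^ i.1 :=
  key1 api w (Xv.one' (one_mem _) (Commute.one_left b)) (one_mem _) (D3 (φ := φ) m1 ▸ h.xv.pow 3)
    (by rw [← conj_pow, h.i1]; group)

theorem n3 (rk : Rk G) (h : Uw b φ R u d1 (T e1) (T e2) (T e3)) : u ^ 3 ≠ 1 := fun e => by
  have h2 := h.r2 w
  have h3 := h2.r3 w
  have c := cj_cm (φ ρ) (com api w h h2)
  have e2 : (φ ρ * u * (φ ρ)⁻¹) ^ 3 = 1 := by rw [conj_pow, e]; group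
  have e3 : (φ ρ * (φ ρ * u * (φ ρ)⁻¹) * (φ ρ)⁻¹) ^ 3 = 1 := by rw [conj_pow, e2]; group
  generalize φ ρ * (φ ρ * u * (φ ρ)⁻¹) * (φ ρ)⁻¹ = q at *
  generalize φ ρ * u * (φ ρ)⁻¹ = p at *
  have l1 : zpowers (φ d2) ⊔ zpowers (φ d3) ≤ Dm φ := sup_le (zpowers_le.2 m2) (zpowers_le.2 m3)
  have a1 := abelem_sup (abelem_zpowers (D3 (φ := φ) m2)) (abelem_zpowers (D3 m3))
    (zpowers_le.2 (cent_mono (zpowers_le.2 m3) (DC m2)))
  have k2 := cent_mono l1 h2.xv.1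
  have a2 := abelem_sup a1 (abelem_zpowers e2) (cents_symm (zpowers_le.2 k2))
  have k3 : q ∈ C(zpowers (φ d2) ⊔ zpowers (φ d3) ⊔ zpowers p) := by
    rw [cent_sup, cent_zpowers]; exact ⟨cent_mono l1 h3.xv.1, cmc.2 c.symm⟩
  have a3 := abelem_sup a2 (abelem_zpowers e3) (cents_symm (zpowers_le.2 k3))
  have := rk (zpowers (φ (T e1))) _ (pg_z (mapT _)) (by
      rw [Ne, zpowers_eq_bot, ← map_one φ]; exact mt (fun e => w.inj e) (by decide +kernel))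
    (le_trans (sup_le (sup_le (sup_le (zpowers_le.2 (cmc.2 ((by decide +kernel : Commute d2 (T e1)).map φ)))
      (zpowers_le.2 (cmc.2 ((by decide +kernel : Commute d3 (T e1)).map φ)))) (zpowers_le.2 (cmc.2 h2.c3)))
      (zpowers_le.2 (cmc.2 h3.c2))) (cent1_le_norm_zpowers _)) a3.1 a3.2
  have i2 : φ d2 ≠ 1 := by rw [← map_one φ]; exact mt (fun e => w.inj e) (by decide +kernel)
  have n23 : φ d3 ∉ zpowers (φ d2) := fun m => by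
    have := zp3 (D3 m2) m
    rw [← map_inv, ← map_one φ, w.inj.eq_iff, w.inj.eq_iff, w.inj.eq_iff] at this
    revert this; decide +kernel
  rw [card_sup_zp e3 (fun m => ?_) (cent_le_norm _ k3), card_sup_zp e2 (fun m => ?_) (cent_le_norm _ k2),
    card_sup_zp (D3 m3) n23 (cent1_le_norm_zpowers _ (cmc.2 (cmC (DC m3) m2))), card_zp (D3 m2) i2] at this
  · omega
  · exact i2 (h2.xv.uq (Xv.one' h2.xv.1 (cmC (bC w) (l1 m)).symm))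
  · let S : Subgroup G :=
      { carrier := {g | ∃ y ∈ zpowers (φ d2), Xv (Dm φ) b g y}
        one_mem' := ⟨1, one_mem _, Xv.one' (one_mem _) (Commute.one_left b)⟩
        mul_mem' := fun ⟨_, a, a'⟩ ⟨_, c, c'⟩ => ⟨_, mul_mem c a, a'.mul c'⟩
        inv_mem' := fun ⟨_, a, a'⟩ => ⟨_, inv_mem a, a'.inv⟩ }
    obtain ⟨y, hy, x⟩ := sup_le (c := S) (fun g hg => ⟨1, one_mem _, Xv.one' (DC (l1 hg)) (cmC (bC w) (l1 hg)).symm⟩)
      (zpowers_le.2 ⟨_, mem_zpowers _, h2.xv⟩) m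
    exact n23 (h3.xv.uq x ▸ hy)
end

end H20.SX
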