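/-
S3159, chunk AFF.
-/
import Cfsg.Agent.H20.SX5

set_option autoImplicit false
set_option linter.unusedSectionVars false
set_option synthInstance.maxSize 4096
set_option synthInstance.maxHeartbeats 200000
open Cfsg Subgroup H19 H23.F4 H26.SX
open H25.L7 (Xv cmc cmC mkC cjm cm_of cj_cm cube tr_pow cz1 cmi inv3 sq3 pg_z)
open scoped commutatorElement
namespace H20.SX
universe u

/-- the context of the affine case -/
structure Cx {G : Type*} [Group G] (b : G) (φ : Sp →* G) (R : Subgroup G) (u1 u2 u3 : G) (e : ℕ) : Prop where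
  w : Wc b φ R
  h1 : Uw b φ R u1 d1 (T e1) (T e2) (T e3)
  h2 : Uw b φ R u2 d2 (T e2) (T e3) (T e1)
  h3 : Uw b φ R u3 d3 (T e3) (T e1) (T e2)
  r1 : φ ρ * u1 * (φ ρ)⁻¹ = u2
  r2 : φ ρ * u2 * (φ ρ)⁻¹ = u3
  r3 : φ ρ * u3 * (φ ρ)⁻¹ = u1
  c12 : Commute u1 u2
  k1 : u1 ^ 3 = φ d1 ^ e
  ne : e.Coprime 3
  lg : ∀ v, Lg b φ v → v.1 ≠ 0

abbrev UU {G : Type*} [Group G] (u1 u2 u3 : G) : Subgroup G := zpowers u1 ⊔ zpowers u2 ⊔ zpowers u3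
def z0 : Sp := T e1 * T e2 * T e3
theorem nz0 : z0 ∈ N(AM) := mul_mem (mul_mem nT1 nT2) nT3

namespace Cx
variable (api : Api.{u}) {G : Type u} [Group G] [Finite G] {b u1 u2 u3 g y t : G} {φ : Sp →* G} {R : Subgroup G} {e : ℕ}
  (x : Cx b φ R u1 u2 u3 e)
include x
theorem c23 : Commute u2 u3 := by have := cj_cm (φ ρ) x.c12; rwa [x.r1, x.r2] at this
theorem c31 : Commute u3 u1 := by have := cj_cm (φ ρ) x.c23; rwa [x.r2, x.r3] at this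
theorem k2 : u2 ^ 3 = φ d2 ^ e := by
  rw [← x.r1, conj_pow, x.k1, ← conj_pow, mcj, (by decide +kernel : ρ * d1 * ρ⁻¹ = d2)]
theorem k3 : u3 ^ 3 = φ d3 ^ e := by
  rw [← x.r2, conj_pow, x.k2, ← conj_pow, mcj, (by decide +kernel : ρ * d2 * ρ⁻¹ = d3)]
theorem n12 : zpowers u1 ≤ C(zpowers u2) := by rw [cent_zpowers]; exact zpowers_le.2 (cmc.2 x.c12)
theorem n3 : zpowers u1 ⊔ zpowers u2 ≤ C(zpowers u3) := by
  rw [cent_zpowers]; exact sup_le (zpowers_le.2 (cmc.2 x.c31.symm)) (zpowers_le.2 (cmc.2 x.c23))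
theorem ab : Ab (UU u1 u2 u3) := comm_sup (comm_sup inferInstance inferInstance x.n12) inferInstance x.n3
theorem dec (h : g ∈ UU u1 u2 u3) : ∃ a1 ∈ zpowers u1, ∃ a2 ∈ zpowers u2, ∃ a3 ∈ zpowers u3, g = a1 * a2 * a3 := by
  obtain ⟨a, ha, a3, h3, rfl⟩ := (mem_sup_of_norm' (norms_of_cents x.n3)).1 h
  obtain ⟨a1, h1, a2, h2, rfl⟩ := (mem_sup_of_norm' (norms_of_cents x.n12)).1 ha
  exact ⟨_, h1, _, h2, _, h3, rfl⟩
omit x in
theorem i1 : u1 ∈ UU u1 u2 u3 := mem_sup_left (mem_sup_left (mem_zpowers _))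
omit x in
theorem i2 : u2 ∈ UU u1 u2 u3 := mem_sup_left (mem_sup_right (mem_zpowers _))
omit x in
theorem i3 : u3 ∈ UU u1 u2 u3 := mem_sup_right (mem_zpowers _)
omit x in
theorem U_le {K : Subgroup G} (h1 : u1 ∈ K) (h2 : u2 ∈ K) (h3 : u3 ∈ K) : UU u1 u2 u3 ≤ K :=
  sup_le (sup_le (zpowers_le.2 h1) (zpowers_le.2 h2)) (zpowers_le.2 h3)
theorem good (h : g ∈ UU u1 u2 u3) : φ z0 * g * (φ z0)⁻¹ = g⁻¹ ∧ ∃ y, Xv (Dm φ) b g y ∧ g ^ 3 = y ^ e := by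
  let S : Subgroup G :=
    { carrier := {g | g ∈ UU u1 u2 u3 ∧ φ z0 * g * (φ z0)⁻¹ = g⁻¹ ∧ ∃ y, Xv (Dm φ) b g y ∧ g ^ 3 = y ^ e}
      one_mem' := ⟨one_mem _, by simp, 1, Xv.one' (one_mem _) (Commute.one_left b), by simp⟩
      mul_mem' := fun {p q} ⟨a, a', y, a2, a3⟩ ⟨c, c', y', c2, c3⟩ => ⟨mul_mem a c, by
        rw [← conj_mul, a', c', ← mul_inv_rev, mul_comm_of_comm x.ab a c], _, a2.mul c2, by
        rw [Commute.mul_pow (mul_comm_of_comm x.ab a c), a3, c3, ← (cmC (DC a2.2.1) c2.2.1).mul_pow,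
          (cmC (DC a2.2.1) c2.2.1).eq]⟩
      inv_mem' := fun ⟨a, a', y, a2, a3⟩ => ⟨inv_mem a, by rw [← conj_inv, a'], _, a2.inv, by rw [inv_pow, a3, inv_pow]⟩ }
  have k : ∀ (a b c : G) u, a * b * c * u * (a * b * c)⁻¹ = a * (b * (c * u * c⁻¹) * b⁻¹) * a⁻¹ := fun _ _ _ _ => by group
  refine (U_le (K := S) ⟨i1, ?_, _, x.h1.xv, x.k1⟩ ⟨i2, ?_, _, x.h2.xv, x.k2⟩ ⟨i3, ?_, _, x.h3.xv, x.k3⟩ h).2 <;>
    rw [z0, map_mul, map_mul, k]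
  · rw [cjm x.h1.c3.symm, cjm x.h1.c2.symm, x.h1.i1]
  · rw [cjm x.h2.c2.symm, x.h2.i1, cjm x.h2.c3.symm.inv_right]
  · rw [x.h3.i1, cjm x.h3.c3.symm.inv_right, cjm x.h3.c2.symm.inv_right]
theorem pe (h : g ∈ UU u1 u2 u3) : PiE {3} g := by
  obtain ⟨-, y, a, e⟩ := x.good h
  exact (PiN.prime_pow p3 2).dvd (orderOf_dvd_of_pow_eq_one (by
    rw [sq, pow_mul, e, ← pow_mul, mul_comm, pow_mul, D3 a.2.1, one_pow]))
theorem UC (h : g ∈ UU u1 u2 u3) : g ∈ C(Dm φ) := let ⟨_, _, a, _⟩ := x.good h; a.1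
theorem DU : Dm φ ≤ UU u1 u2 u3 := by
  have k : ∀ {d u}, φ d ∈ Dm φ → u ^ 3 = φ d ^ e → u ∈ UU u1 u2 u3 → φ d ∈ UU u1 u2 u3 := fun a c m =>
    mem_of_pow_mem x.ne ((pg_zp (D3 a)).elt (mem_zpowers _)) (c ▸ pow_mem m 3)
  exact map_le_iff_le_comap.2 (AM_le (k m1 x.k1 i1) (k m2 x.k2 i2) (k m3 x.k3 i3))
theorem sur (h : y ∈ Dm φ) : ∃ g ∈ UU u1 u2 u3, Xv (Dm φ) b g y := by
  obtain ⟨_, ⟨t, rfl⟩, rfl⟩ := h
  refine ⟨_, mul_mem (mul_mem (pow_mem i3 t.2.2.1) (pow_mem i2 t.2.1.1)) (pow_mem i1 t.1.1), ?_⟩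
  convert ((x.h3.xv.pow _).mul (x.h2.xv.pow _)).mul (x.h1.xv.pow _) using 1
  simp only [dA, map_mul, map_pow, mul_assoc]
theorem cb (h : g ∈ UU u1 u2 u3) (i : ℕ) : ⁅b ^ i, g⁆ ∈ Dm φ := by
  obtain ⟨-, y, a, -⟩ := x.good h
  exact (pow_mem (show b ∈ cz1 (Dm φ) g from ⟨cent_le_norm _ (bC x.w), cmi (by
    rw [commutatorElement_def, a.2.2, mul_inv_cancel_right]; exact a.2.1)⟩) i).2
theorem nb : b ∈ N(UU u1 u2 u3) := mem_norm_of_cj_le (cj_le_iff.2 fun g hg => mem_cj_inv.2 (by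
  simpa [commutatorElement_def] using mul_mem (x.DU (x.cb hg 1)) hg))
theorem nr : φ ρ ∈ N(UU u1 u2 u3) := mem_norm_of_cj_le (cj_le_iff.2 (U_le (mem_cj_inv.2 (x.r1 ▸ i2))
  (mem_cj_inv.2 (x.r2 ▸ i3)) (mem_cj_inv.2 (x.r3 ▸ i1))))
theorem nr0 : φ ρ ∈ N(UU u1 u2 u3 ⊔ zpowers b) := zpowers_le.1 (norms_sup (zpowers_le.2 x.nr)
  (zpowers_le.2 (cent1_le_norm_zpowers _ (cmc.2 (x.w.cb _).symm))))
theorem fix (h : g ∈ UU u1 u2 u3) (c : Commute g (φ z0)) : g = 1 :=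
  PiN.e_eq_one (x.pe h) (((pg_z (mul_eq_one_iff_eq_inv.2 ((cjm c.symm).symm.trans (x.good h).1))).elt
    (mem_zpowers _)).sing_ne (by decide))
theorem AT : AA b φ ≤ UU u1 u2 u3 ⊔ zpowers b := sup_le le_sup_right (x.DU.trans le_sup_left)
theorem pT : PG 3 (UU u1 u2 u3 ⊔ zpowers b ⊔ zpowers (φ ρ)) :=
  ((PiN.of_elt fun _ h => x.pe h).sup (pg_zp (b3 x.w)) (zpowers_le.2 x.nb)).sup (pg_zp (map3 ρ_cube)) (zpowers_le.2 x.nr0)
theorem hh {γ : G} (c : ∀ g ∈ UU u1 u2 u3, γ * g * γ⁻¹ ∈ UU u1 u2 u3) (c3 : γ ^ 3 = 1)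
    (k : (∀ s, γ * φ s * γ⁻¹ = φ (ρ * s * ρ⁻¹)) ∨ ∀ s, γ * φ s * γ⁻¹ = φ (ρ⁻¹ * s * ρ)) (h : g ∈ UU u1 u2 u3)
    (e3 : (g * γ) ^ 3 = 1) : ∃ w ∈ UU u1 u2 u3, w * (g * γ) * w⁻¹ = γ := by
  obtain ⟨a1, p1, a2, p2, a3, p3, rfl⟩ := x.dec h
  have q1 : a1 ∈ UU u1 u2 u3 ⊓ C[φ (T e2)] ⊓ C[φ (T H23.F4.e3)] :=
    (zpowers_le.2 (mem_inf.2 ⟨mem_inf.2 ⟨i1, cmc.2 x.h1.c2⟩, cmc.2 x.h1.c3⟩) : zpowers u1 ≤ _) p1
  have q2 : a2 ∈ UU u1 u2 u3 ⊓ C[φ (T H23.F4.e3)] ⊓ C[φ (T e1)] :=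
    (zpowers_le.2 (mem_inf.2 ⟨mem_inf.2 ⟨i2, cmc.2 x.h2.c2⟩, cmc.2 x.h2.c3⟩) : zpowers u2 ≤ _) p2
  have q3 : a3 ∈ UU u1 u2 u3 ⊓ C[φ (T e1)] ⊓ C[φ (T e2)] :=
    (zpowers_le.2 (mem_inf.2 ⟨mem_inf.2 ⟨i3, cmc.2 x.h3.c2⟩, cmc.2 x.h3.c3⟩) : zpowers u3 ≤ _) p3
  have mv : ∀ {s s' r r' : Sp}, γ * φ s * γ⁻¹ = φ r → γ * φ s' * γ⁻¹ = φ r' → ∀ g ∈ UU u1 u2 u3 ⊓ C[φ s] ⊓ C[φ s'],
      γ * g * γ⁻¹ ∈ UU u1 u2 u3 ⊓ C[φ r] ⊓ C[φ r'] := fun a a' g hg =>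
    ⟨⟨c g hg.1.1, cmc.2 (a ▸ cj_cm γ (cmc.1 hg.1.2))⟩, cmc.2 (a' ▸ cj_cm γ (cmc.1 hg.2))⟩
  have ind : ∀ g ∈ UU u1 u2 u3 ⊓ C[φ (T e2)] ⊓ C[φ (T H23.F4.e3)], ∀ y ∈ C[φ (T e1)], ∀ z ∈ C[φ (T e1)], g * y * z = 1 → g = 1 :=
    fun g hg y hy z hz a => x.fix hg.1.1 (by
      have : g ∈ C[φ (T e1)] := by
        rw [mul_assoc] at a; rw [eq_inv_of_mul_eq_one_left a]; exact inv_mem (mul_mem hy hz)
      rw [z0, map_mul, map_mul]; exact ((cmc.1 this).mul_right (cmc.1 hg.1.2)).mul_right (cmc.1 hg.2))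
  have l : ∀ {A B : Subgroup G}, UU u1 u2 u3 ⊓ A ⊓ B ≤ UU u1 u2 u3 := fun {_ _} _ h => h.1.1
  rcases k with k | k
  · have a1 := (k _).trans (congrArg φ (by decide +kernel : ρ * T e1 * ρ⁻¹ = T e2))
    have a2 := (k _).trans (congrArg φ (by decide +kernel : ρ * T e2 * ρ⁻¹ = T H23.F4.e3))
    have a3 := (k _).trans (congrArg φ (by decide +kernel : ρ * T H23.F4.e3 * ρ⁻¹ = T e1))
    exact SX.h1 x.ab l l l (mv a2 a3) (mv a3 a1) (mv a1 a2) (fun g hg y hy z hz => ind g hg y hy.2 z hz.1.2) c3 q1 q2 q3 e3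
  · have b1 := (k _).trans (congrArg φ (by decide +kernel : ρ⁻¹ * T e1 * ρ = T H23.F4.e3))
    have b2 := (k _).trans (congrArg φ (by decide +kernel : ρ⁻¹ * T e2 * ρ = T e1))
    have b3 := (k _).trans (congrArg φ (by decide +kernel : ρ⁻¹ * T H23.F4.e3 * ρ = T e2))
    rw [mul_assoc a1, mul_comm_of_comm x.ab (l q2) (l q3), ← mul_assoc] at e3 ⊢
    exact SX.h1 x.ab l l l (mv b2 b3) (mv b1 b2) (mv b3 b1) (fun g hg y hy z hz => ind g hg y hy.1.2 z hz.2) c3 q1 q3 q2 e3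
include api
theorem om (h : t ∈ UU u1 u2 u3 ⊔ zpowers b) (h3 : t ^ 3 = 1) : t ∈ AA b φ := by
  obtain ⟨g, hg, _, hb, rfl⟩ := (mem_sup_of_norm (zpowers_le.2 x.nb)).1 h
  obtain ⟨i, rfl⟩ := zp3' (b3 x.w) hb
  have c := x.cb hg i.1
  obtain ⟨z, y, a, k⟩ := x.good hg
  rw [cube (cmC a.1 c).symm (cmC (pow_mem (bC x.w) _) c).symm (D3 c), ← pow_mul b, mul_comm, pow_mul, b3 x.w, one_pow,
    mul_one, k] at h3
  obtain rfl : y = 1 := mem_bot.1 (mem_of_pow_mem x.ne ((pg_zp (D3 a.2.1)).elt (mem_zpowers _)) (mem_bot.2 h3))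
  exact mul_mem (mem_sup_right (keyL api x.w nz0 (Xv.one' (one_mem _) (Commute.one_left b)) (one_mem _) a
    (by rw [z]; group)).1) (mem_sup_left hb)
theorem lg1 {v : t4} (h : Lg b φ v) : v.1 = 1 := by
  obtain ⟨i, t⟩ := v
  by_contra n
  obtain rfl : i = 2 := (by decide : ∀ i : Fin 3, i ≠ 0 → i ≠ 1 → i = 2) i (x.lg _ h) n
  obtain ⟨g, h⟩ := isConj_iff.1 h
  obtain ⟨p, hp, a⟩ := x.sur (mD (φ := φ) t)
  have e : p * g * b * (p * g)⁻¹ = b⁻¹ := by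
    have : ea b φ (2, t) = b⁻¹ * φ (dA t) := by rw [inv3 (b3 x.w)]; simp [ea, sq]
    calc _ = p * (g * b * g⁻¹) * p⁻¹ := by group
      _ = (p * b * p⁻¹)⁻¹ * (p * φ (dA t) * p⁻¹) := by rw [h, this]; group
      _ = _ := by rw [a.2.2, cjm (cmC a.1 (mD t))]; group
  obtain ⟨k, hk⟩ := api.inn x.w _ (.inr e)
  have nL : ∀ y, Commute ((φ k)⁻¹ * (p * g)) (φ y) := fun y => cm_of (by
    calc _ = (φ k)⁻¹ * (p * g * φ y * (p * g)⁻¹) * φ k := by group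
      _ = _ := by rw [hk, ← mcj]; group)
  have nb : (φ k)⁻¹ * (p * g) * b * ((φ k)⁻¹ * (p * g))⁻¹ = b⁻¹ := by
    calc _ = (φ k)⁻¹ * (p * g * b * (p * g)⁻¹) * φ k := by group
      _ = _ := by rw [e, (x.w.cb k).symm.inv_right.inv_mul_cancel]
  generalize (φ k)⁻¹ * (p * g) = n at nL nb
  have a := x.h1.xv.mul (x.h1.xv.cj' (bC x.w) (norm_of_comm nL) nb)
  rw [cjm (nL _), inv_mul_cancel] at a
  have iv : φ (T e1) * (n * u1 * n⁻¹) * (φ (T e1))⁻¹ = (n * u1 * n⁻¹)⁻¹ := by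
    rw [← conj_mul, ← conj_mul, ← conj_inv, cjm (nL _).symm, x.h1.i1]; group
  obtain ⟨i, c⟩ := key1 api x.w x.h1.xv x.h1.cR a (by rw [← conj_mul, x.h1.i1, iv]; group)
  have d : φ d1 ^ i.1 ∈ Dm φ := pow_mem m1 _
  have : (n * u1 * n⁻¹) ^ 3 = (u1 ^ 3)⁻¹ := by
    rw [eq_inv_mul_of_mul_eq c, (cmC x.h1.xv.1 d).inv_left.mul_pow, D3 d, mul_one, inv_pow]
  rw [conj_pow, x.k1, cjm ((nL _).pow_right _)] at this
  have := eq_one23 (mul_eq_one_iff_eq_inv.2 this) (D3 (pow_mem m1 _))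
  have := mem_bot.1 (mem_of_pow_mem x.ne ((pg_zp (D3 m1)).elt (mem_zpowers _)) (mem_bot.2 this))
  exact absurd (x.w.inj (this.trans (map_one φ).symm)) (by decide +kernel)
theorem fus (h : g * b * g⁻¹ ∈ UU u1 u2 u3 ⊔ zpowers b ⊔ zpowers (φ ρ)) : (∃ y ∈ Dm φ, g * b * g⁻¹ = y * b) ∨
    ∃ w ∈ UU u1 u2 u3, ∃ σ, (σ = ρ ∨ σ = ρ⁻¹) ∧ w * (g * b * g⁻¹) * w⁻¹ = b * φ σ := by
  have o : (g * b * g⁻¹) ^ 3 = 1 := by rw [conj_pow, b3 x.w]; group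
  obtain ⟨t, ht, s, hs, e⟩ := (mem_sup_of_norm (zpowers_le.2 x.nr0)).1 h
  have key : ∀ σ, σ = ρ ∨ σ = ρ⁻¹ → s = φ σ → ∃ w ∈ UU u1 u2 u3, w * (g * b * g⁻¹) * w⁻¹ = b * φ σ := by
    rintro σ hσ rfl
    obtain ⟨p, hp, _, hb, rfl⟩ := (mem_sup_of_norm (zpowers_le.2 x.nb)).1 ht
    obtain ⟨i, rfl⟩ := zp3' (b3 x.w) hb
    have cb := (x.w.cb σ).pow_left i.1
    have s3 : σ ^ 3 = 1 := by rcases hσ with rfl | rfl <;> decide +kernel
    rw [mul_assoc p] at e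
    obtain ⟨w, hw, k⟩ := x.hh (γ := b ^ i.1 * φ σ)
      (fun g hg => conj_mem_of_norm (mul_mem (pow_mem x.nb _) (zpowers_le.2 x.nr hs)) hg)
      (by rw [cb.mul_pow, ← pow_mul, mul_comm, pow_mul, b3 x.w, map3 s3]; simp) (by
        have : ∀ s, b ^ i.1 * φ σ * φ s * (b ^ i.1 * φ σ)⁻¹ = φ (σ * s * σ⁻¹) := fun s => by
          rw [← cjm ((x.w.cb (σ * s * σ⁻¹)).pow_left i.1), ← mcj]; group
        rcases hσ with rfl | rfl
        exacts [.inl this, .inr this]) hp (e ▸ o)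
    obtain ⟨l, hl⟩ := isConj_iff.1 (cls4 s3 (by rcases hσ with rfl | rfl <;> decide +kernel)).symm
    have := x.lg1 api (v := (i, 1, 1, 0)) (isConj_iff.2 ⟨φ l * w * g, by
      calc _ = φ l * (w * (g * b * g⁻¹) * w⁻¹) * (φ l)⁻¹ := by group
        _ = _ := by
          rw [e, k, ← conj_mul, mcj, hl, cjm ((x.w.cb l).pow_left _).symm, ea, (by decide +kernel : dA (1, 1, 0) = d1 * d2)]⟩)
    exact ⟨w, hw, by rw [e, k, show i = 1 from this]; simp⟩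
  rcases zp3 (map3 ρ_cube) hs with rfl | a | a
  · rw [mul_one] at e
    obtain ⟨⟨i, s⟩, a⟩ := (api.mem x.w _).1 (x.om api ht (e ▸ o))
    obtain rfl : i = 1 := x.lg1 api (v := (i, s)) (isConj_iff.2 ⟨g, e.trans a⟩)
    exact .inl ⟨_, mD s, by rw [e, a, ea1 x.w]⟩
  · obtain ⟨w, hw, k⟩ := key _ (.inl rfl) a
    exact .inr ⟨w, hw, _, .inl rfl, k⟩
  · obtain ⟨w, hw, k⟩ := key _ (.inr rfl) (a.trans (map_inv _ _).symm)
    exact .inr ⟨w, hw, _, .inr rfl, k⟩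
theorem syl : Syl 3 (UU u1 u2 u3 ⊔ zpowers b ⊔ zpowers (φ ρ)) ⊤ := by
  by_contra h
  obtain ⟨Q, h1, h2, -, h3⟩ := x.pT.exists_lt_norm le_top h
  have l0 : UU u1 u2 u3 ≤ UU u1 u2 u3 ⊔ zpowers b ⊔ zpowers (φ ρ) := le_sup_left.trans le_sup_left
  have bT : b ∈ UU u1 u2 u3 ⊔ zpowers b ⊔ zpowers (φ ρ) := mem_sup_left (mem_sup_right (mem_zpowers _))
  have PT : PM ≤ (UU u1 u2 u3 ⊔ zpowers b ⊔ zpowers (φ ρ)).comap φ :=
    sup_le (map_le_iff_le_comap.1 (x.DU.trans l0)) (zpowers_le.2 (mem_sup_right (mem_zpowers (φ ρ))))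
  refine h1.not_ge fun g hg => ?_
  rcases x.fus api (conj_mem_of_norm (h3 hg) bT) with ⟨y, hy, e⟩ | ⟨w, hw, σ, hσ, e⟩
  · obtain ⟨τ, t1, a⟩ := x.sur hy
    have m := mul_mem (inv_mem (h1.le (l0 t1))) hg
    obtain ⟨i, k, c⟩ := api.m3 x.w _ (cm_of (by
      rw [show τ⁻¹ * g * b * (τ⁻¹ * g)⁻¹ = τ⁻¹ * (g * b * g⁻¹) * τ by group, e, ← a.2.2]; group))
      ((h2.elt m).mono (by simp))
    refine (mul_mem_cancel_left (inv_mem (l0 t1))).1 (c ▸ mul_mem (pow_mem bT _) (PT ?_))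
    rw [← syl_PM.max (PT.trans (comap_mono h1.le)) le_top (pi_comap x.w.inj h2)]
    exact (mul_mem_cancel_left (pow_mem (h1.le bT) _)).1 (c ▸ m)
  · have n := mul_mem (le_normalizer (l0 hw)) (h3 hg)
    have e : w * g * b * (w * g)⁻¹ = b * φ σ := by rw [← e]; group
    generalize w * g = k at n e
    obtain ⟨c81, ab, e3⟩ := api.cA x.w
    have s3 : σ ^ 3 = 1 := by rcases hσ with rfl | rfl <;> decide +kernel
    have lT := cj_le_of_mem_norm n (x.AT.trans le_sup_left)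
    have mA : b * φ σ ∈ cj k (AA b φ) := e ▸ conj_mem_cj.2 (mem_sup_left (mem_zpowers _))
    have ab' := comm_cj (g := k).2 ab
    have e3' : ∀ a ∈ cj k (AA b φ), a ^ 3 = 1 := fun _ ha' => by
      obtain ⟨a, ha, rfl⟩ := mem_cj'.1 ha'
      rw [conj_pow, e3 a ha]; group
    have o : (b * φ σ) ^ 3 = 1 := e3' _ mA
    have cz : Commute (b * φ σ) (φ zz) := (x.w.cb _).mul_left (Commute.map (by rcases hσ with rfl | rfl <;> decide +kernel) φ)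
    have le : cj k (AA b φ) ≤ zpowers b ⊔ zpowers (φ zz) ⊔ zpowers (b * φ σ) := fun a ha => by
      have k0 : ∀ a ∈ cj k (AA b φ), a ∈ UU u1 u2 u3 ⊔ zpowers b → a ∈ zpowers b ⊔ zpowers (φ zz) := fun a ha h0 => by
        obtain ⟨⟨i, t⟩, rfl⟩ := (api.mem x.w _).1 (x.om api h0 (e3' a ha))
        have c : Commute (b ^ i.1 * φ (dA t)) (b * φ σ) := mul_comm_of_comm ab' ha mA
        have c1 : Commute (φ (dA t)) (b * φ σ) := by
          simpa using ((Commute.refl b).mul_right (x.w.cb σ)).pow_left i.1 |>.inv_left.mul_left c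
        have c2 : Commute (dA t) σ := (comm_map x.w.inj).1 (by simpa using (x.w.cb _).symm.inv_right.mul_right c1)
        have : dA t = zz ^ t.1.1 := by
          clear c c1 ha h0; revert t; rcases hσ with rfl | rfl <;> decide +kernel
        exact mul_mem (mem_sup_left (pow_mem (mem_zpowers _) _)) (mem_sup_right (by
          rw [this, map_pow]; exact pow_mem (mem_zpowers _) _))
      obtain ⟨t, ht, s, hs, rfl⟩ := (mem_sup_of_norm (zpowers_le.2 x.nr0)).1 (lT ha)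
      obtain ⟨j, rfl⟩ : ∃ j : ℕ, s = φ σ ^ j := by
        obtain ⟨j, rfl⟩ := zp3' (map3 s3) (show s ∈ zpowers (φ σ) by
          rcases hσ with rfl | rfl
          · exact hs
          · rwa [map_inv, zpowers_inv])
        exact ⟨j, rfl⟩
      have := k0 _ (mul_mem ha (inv_mem (pow_mem mA j))) (by
        rw [(x.w.cb σ).mul_pow, mul_inv_rev, ← mul_assoc, mul_inv_cancel_right]
        exact mul_mem ht (inv_mem (mem_sup_right (pow_mem (mem_zpowers _) _))))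
      simpa using mul_mem (mem_sup_left this) (mem_sup_right (pow_mem (mem_zpowers (b * φ σ)) j))
    have c1 := Nat.le_of_dvd (Nat.mul_pos (card_pos _) (card_pos _)) (card_sup_dvd (A := zpowers b ⊔ zpowers (φ zz))
      (B := zpowers (b * φ σ)) (norms_sup (zpowers_le.2 (cent1_le_norm_zpowers _ (cmc.2 ((Commute.refl b).mul_left (x.w.cb σ).symm))))
        (zpowers_le.2 (cent1_le_norm_zpowers _ (cmc.2 cz)))))
    have c2 := Nat.le_of_dvd (Nat.mul_pos (card_pos _) (card_pos _)) (card_sup_dvd (A := zpowers b) (B := zpowers (φ zz))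
      (zpowers_le.2 (cent1_le_norm_zpowers _ (cmc.2 (x.w.cb _).symm))))
    have c3 := card_le le
    have z3 : ∀ {y : G}, y ^ 3 = 1 → #(zpowers y) ≤ 3 := fun h => by
      rw [Nat.card_zpowers]; exact orderOf_le_of_pow_eq_one (by decide) h
    have := Nat.mul_le_mul (c2.trans (Nat.mul_le_mul (z3 (b3 x.w)) (z3 (map3 (by decide +kernel))))) (z3 o)
    rw [card_cj, c81] at c3
    omega
end Cx

theorem aff : AFF.{u} := by
  intro api G _ _ b φ R rk h3 w hA lg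
  obtain ⟨u, h⟩ := exU api w hA
  obtain ⟨i, k⟩ := cub api w h
  have x : Cx b φ R u _ _ i.1 := ⟨w, h, h.r2 w, (h.r2 w).r3 w, rfl, rfl, by
    calc _ = φ ρ ^ 3 * u * (φ ρ ^ 3)⁻¹ := by simp only [pow_three]; group
      _ = u := by rw [map3 ρ_cube]; simp, com api w h (h.r2 w), k,
    (by decide : ∀ i : Fin 3, i ≠ 0 → i.1.Coprime 3) i (by rintro rfl; exact n3 api w rk h (by simpa using k)), lg⟩
  generalize φ ρ * (φ ρ * u * (φ ρ)⁻¹) * (φ ρ)⁻¹ = u3 at x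
  generalize φ ρ * u * (φ ρ)⁻¹ = u2 at x
  have nb : b ∈ N(UU u u2 u3 ⊔ zpowers (φ ρ)) := zpowers_le.1 (norms_sup (zpowers_le.2 x.nb)
    (zpowers_le.2 (cent1_le_norm_zpowers _ (cmc.2 (w.cb _)))))
  refine (tr3 (x.syl api) (K := UU u u2 u3 ⊔ zpowers (φ ρ)) ⟨sup_le_sup_right le_sup_left _,
    sup_le (sup_le (norms_of_le le_sup_left) (zpowers_le.2 nb)) (norms_of_le le_sup_right)⟩
    (mem_sup_left (mem_sup_right (mem_zpowers _))) (b3 w) (fun m => ?_) (sup_right_comm _ _ _).le fun g hg => ?_).elim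
    fun N n => h3 N n.1 n.2
  · obtain ⟨g, hg, s, hs, e⟩ := (mem_sup_of_norm (zpowers_le.2 x.nr)).1 m
    have c : Commute s (φ d1) := cmC (by simpa [e] using mul_mem (inv_mem (x.UC hg)) (bC w)) m1
    have : s = 1 := by
      rcases zp3 (map3 ρ_cube) hs with a | a | a
      · exact a
      · exact absurd ((comm_map w.inj).1 (a ▸ c)) (by decide +kernel)
      · exact absurd ((comm_map w.inj).1 (Commute.inv_left_iff.1 (a ▸ c))) (by decide +kernel)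
    rw [this, mul_one] at e
    have := x.fix hg (e ▸ w.cb _)
    simpa [e, this] using w.o3
  · rcases x.fus api hg with ⟨y, hy, e⟩ | ⟨p, hp, σ, hσ, e⟩
    · rw [e, mul_inv_cancel_right]; exact mem_sup_left (x.DU hy)
    · have : φ σ ∈ zpowers (φ ρ) := by
        rcases hσ with rfl | rfl
        · exact mem_zpowers _
        · rw [map_inv]; exact inv_mem (mem_zpowers _)
      convert mul_mem (inv_mem (mem_sup_left hp)) (conj_mem_of_norm nb (mul_mem (mem_sup_right this) (mem_sup_left hp))) using 1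
      rw [← mul_assoc b, ← e]; group

end H20.SX
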