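import Cfsg.Agent.H20.X91

/-! Large extraspecial subgroups of order `2⁹`: the systems `S₇` and `S₃×S₅` do not occur. -/

set_option autoImplicit false
set_option linter.unusedSectionVars false

open Subgroup
namespace H20.X9
open H0 H19 H10.Y H14.X9
open H10.R (N8 n8 BS ext8 n8v)

universe u
section
variable {V : Type*} [AddCommGroup V] [Module (ZMod 2) V] {q : V → ZMod 2} {b : V → V → ZMod 2}
  {G : Type*} [Group G] [Finite G] {Q Q' : Subgroup G} {z y : G} {π π' : G → V} {ρ ρ' : G → V →+ V}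

theorem exp (h : M Q z π ρ q b) (c : Commute z y) (yy : y * y = 1) : ∃ p ∈ Q, Commute y p ∧ π p ≠ 0 := by
  have i : (ρ y + AddMonoidHom.id V).ker.index ≤ 16 := by
    rw [AddSubgroup.index_ker]; exact h.c16 c (yy ▸ one_mem _)
  obtain ⟨u, hu, n1⟩ := exo h.qs (ρ y + AddMonoidHom.id V).ker [0] (by simp; omega)
  obtain ⟨v, hv, n2⟩ := exo h.qs (ρ y + AddMonoidHom.id V).ker [0, u] (by simp; omega)
  simp only [List.mem_cons, List.not_mem_nil, or_false, not_or] at n1 n2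
  obtain ⟨a, ha, rfl⟩ := h.surj u
  obtain ⟨d, hd, rfl⟩ := h.surj v
  rcases h.fx' c ha (h.qs.eq_iff.1 hu) with e | e
  · exact ⟨a, ha, e, n1⟩
  rcases h.fx' c hd (h.qs.eq_iff.1 hv) with e' | e'
  · exact ⟨d, hd, e', n2.1⟩
  refine ⟨a * d, mul_mem ha hd, mul_inv_eq_iff_eq_mul.1 ?_, by
    rw [h.add a ha d hd]; exact fun k => n2.2 (h.qs.eq_iff.1 k).symm⟩
  rw [← conj_mul, e, e', (h.zc ha).symm.mul_mul_mul_comm, h.zz, one_mul]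

theorem a5 (h : M Q z π ρ q b) (h' : M Q' y π' ρ' q b) (c : Commute z y) (zn : z ∉ Q') {w₀ : V}
    (H1 : ∀ v, q (ρ y v + v) = 0 ∧ (ρ y v = v → ∃ u, ρ y u + u = v))
    (H2 : ∀ w ≠ 0, ρ y w = w → ∃ c, Commute z c ∧ (∀ v, ρ c (ρ y v) = ρ y (ρ c v)) ∧ ρ c (ρ c w₀) = w)
    (H3 : ∀ ε, ∃ u v, b u (ρ y v + v) = ε ∧ ρ y u + u ≠ 0 ∧ ρ y v + v ≠ 0 ∧ ρ y (u + v) + (u + v) ≠ 0)
    (H4 : ∀ c, Commute z c → (∀ w, ρ y w = w → ρ c w = w) → (∀ v, ρ c v = v) ∨ ∀ v, ρ c v = ρ y v) : False := by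
  have yy := h'.zz
  have np := h.np_of c yy H1
  have tr : ∀ w ≠ 0, ρ y w = w → ∃ k, Commute z k ∧ Commute y k ∧ ρ k w₀ = w := fun w w0 e => by
    obtain ⟨d, hd, e1, e2⟩ := H2 w w0 e
    obtain ⟨x, hx, e⟩ := h.cov c yy np hd e1
    have k := (h.zc hx).mul_right hd
    refine ⟨x * d * (x * d), k.mul_right k, (mul_inv_eq_iff_eq_mul.1 ?_).symm, by
      rw [h.rmul k k, h.rmul (h.zc hx) hd, h.rmul (h.zc hx) hd, h.rQ hx, h.rQ hx, e2]⟩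
    generalize x * d = g at *
    rw [show g * g * y * (g * g)⁻¹ = g * (g * y * g⁻¹) * g⁻¹ by group]
    rcases e with e | e <;> rw [e]
    · exact e
    · rw [← mul_assoc, ← k.eq, mul_assoc z, mul_assoc z, e, ← mul_assoc, h.zz, one_mul]
  have tr2 : ∀ P : V → Prop, (∀ k, Commute z k → Commute y k → ∀ w, P w → P (ρ k w)) → ∀ w ≠ 0, ρ y w = w → P w →
      ∀ v, ρ y v + v ≠ 0 → P (ρ y v + v) := fun P i w w0 e p v v0 => by
    obtain ⟨k, k1, k2, rfl⟩ := tr w w0 e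
    obtain ⟨j, j1, j2, e⟩ := tr _ v0 (by rw [map_add, h.rsq c (yy ▸ one_mem _), add_comm])
    exact e ▸ i j j1 j2 _ (h.rinv k1 w₀ ▸ i _ k1.inv_right k2.inv_right _ p)
  have U : ∀ a ∈ Q, (∃ d ∈ Q, d * y * d⁻¹ * y⁻¹ ∈ Q' ∧ ρ y (π d) + π d = ρ y (π a) + π a) → a * y * a⁻¹ * y⁻¹ ∈ Q' :=
    fun a ha ⟨d, hd, m, e⟩ => by
      have := np _ (mul_mem (inv_mem hd) ha) (by
        rw [← h.qs.eq_iff, h.add _ (inv_mem hd) _ ha, h.pinv hd, map_add, add_add_add_comm, e, h.qs.two])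
      rwa [show a * y * a⁻¹ = d * (d⁻¹ * a * y) * a⁻¹ by group, ← this.eq, show d * (y * (d⁻¹ * a)) * a⁻¹ = d * y * d⁻¹ by group]
  have F : ∀ a d : G, a * d * y * (a * d)⁻¹ * y⁻¹ = a * (d * y * d⁻¹ * y⁻¹) * a⁻¹ * (a * y * a⁻¹ * y⁻¹) := fun a d => by group
  by_cases P : ∃ a ∈ Q, a * y * a⁻¹ * y⁻¹ ∈ Q' ∧ ρ y (π a) + π a ≠ 0
  · obtain ⟨a, ha, m, n⟩ := P
    have := fun d hd n' => U d hd (tr2 (fun w => ∃ d ∈ Q, d * y * d⁻¹ * y⁻¹ ∈ Q' ∧ ρ y (π d) + π d = w)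
      (fun k k1 k2 w ⟨d, hd, m, e⟩ => ⟨_, h.nm k1 hd, by
        rw [← k2.symm.mul_inv_cancel]; convert h'.nm k2 m using 1; group, by
        rw [h.conj k k1 d hd, ← h.rcm k1 c k2.symm, ← map_add, e]⟩) _ n
      (by rw [map_add, h.rsq c (yy ▸ one_mem _), add_comm]) ⟨a, ha, m, rfl⟩ (π d) n')
    obtain ⟨u, v, e, n1, n2, n3⟩ := H3 1
    obtain ⟨a, ha, rfl⟩ := h.surj u
    obtain ⟨d, hd, rfl⟩ := h.surj v
    have k := this _ (mul_mem ha hd) (by rwa [h.add a ha d hd])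
    rw [F, h.cjz ha (h.mcm c hd) (by rw [h.pcm c hd, e]; decide)] at k
    exact zn ((mul_mem_cancel_right (this d hd n2)).1 ((mul_mem_cancel_right (this a ha n1)).1 k))
  push Not at P
  by_cases D : ∀ d ∈ Q ⊓ Q', d = 1
  · obtain ⟨p, hp, cp, p0⟩ := exp h' c.symm h.zz
    rcases H4 p cp (fun w e => by
      obtain ⟨a, ha, rfl⟩ := h.surj w
      rw [← h.qs.eq_iff, ← h.pcm cp ha, D _ ⟨h.mcm cp ha, Q'.mul_mem (h'.nm (np a ha e) hp) (Q'.inv_mem hp)⟩, h.p1]) with e | e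
    · exact p0 (D p ⟨h.triv cp e, hp⟩ ▸ h'.p1)
    · exact p0 (inv_mul_eq_one.1 (D _ ⟨h.triv' cp c e, Q'.mul_mem (Q'.inv_mem hp) h'.zQ⟩) ▸ h'.pz)
  push Not at D
  obtain ⟨d, hd, d1⟩ := D
  have : ∀ a ∈ Q, ρ y (π a) + π a ≠ 0 → z * (a * y * a⁻¹ * y⁻¹) ∈ Q' := fun a ha n => by
    obtain ⟨e, he, k⟩ := tr2 (· ∈ Et Q Q' π) (fun k k1 k2 w ⟨d, hd, e⟩ => ⟨_, ⟨h.nm k1 hd.1, h'.nm k2 hd.2⟩, by
      rw [h.conj k k1 d hd.1, e]⟩) (π d) (fun e => ((h.ker d hd.1).1 e).elim d1 fun e => zn (e ▸ hd.2))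
      (h.fx c hd.1 (h'.zc hd.2)) ⟨d, hd, rfl⟩ _ n
    rcases h.eq_of he.1 (h.mcm c ha) (k.trans (h.pcm c ha).symm) with j | j
    exacts [(n (P a ha (j ▸ he.2))).elim, j ▸ he.2]
  obtain ⟨u, v, e, n1, n2, n3⟩ := H3 0
  obtain ⟨a, ha, rfl⟩ := h.surj u
  obtain ⟨d, hd, rfl⟩ := h.surj v
  refine n3 (h.add a ha d hd ▸ P _ (mul_mem ha hd) ?_)
  have := mul_mem (this d hd n2) (this a ha n1)
  rwa [(h.zc (h.mcm c hd)).symm.mul_mul_mul_comm, h.zz, one_mul, ← mul_inv_cancel_right (d * y * d⁻¹ * y⁻¹) a,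
    ← ((h.cm a ha _ (h.mcm c hd)).2 (by rwa [h.pcm c hd])).eq, ← F] at this
end

/-- search for the linear maps which preserve the points -/
def bt (k l : ℕ) : List ℕ → List (ℕ × ℕ) → Bool
  | [], P => [ID, l].any fun m => BS.all fun v => P.any fun p => p.1 == v.1 && p.2 == ap m v.1
  | a :: L, P => a < 256 && A256 fun y => !(P.all fun p => ox k (y ^^^ p.2) == ox k (a ^^^ p.1)) ||
      bt k l L (P ++ P.map fun p => (a ^^^ p.1, y ^^^ p.2))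

theorem bt.of {k l : ℕ} {f : N8 →+ N8} (h : ∀ v, ox k (f v).1 = ox k v.1) {L : List ℕ} {P : List (ℕ × ℕ)}
    (hP : ∀ p ∈ P, ∃ v : N8, v.1 = p.1 ∧ (f v).1 = p.2) (j : bt k l L P = true) : ∃ m ∈ [ID, l], ∀ v, f v = A m v := by
  induction L generalizing P with
  | nil =>
    obtain ⟨m, hm, j⟩ := List.any_eq_true.1 j
    refine ⟨m, hm, ext8 fun v hv => ?_⟩
    obtain ⟨p, m, e⟩ := List.any_eq_true.1 (List.all_eq_true.1 j v hv)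
    obtain ⟨w, e1, e2⟩ := hP p m
    rw [Bool.and_eq_true, beq_iff_eq, beq_iff_eq] at e
    obtain rfl : w = v := Fin.ext (e1.trans e.1)
    exact Fin.ext (e2.trans e.2)
  | cons a l ih =>
    rw [bt, Bool.and_eq_true, decide_eq_true_eq] at j
    have A : ∀ p ∈ P, ∃ w : N8, w.1 = a ^^^ p.1 ∧ (f w).1 = (f (n8 a)).1 ^^^ p.2 := fun p m =>
      let ⟨w, e1, e2⟩ := hP p m; ⟨n8 a + w, by rw [add1, e1, n81 j.1], by rw [map_add, add1, e2]⟩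
    rcases (Bool.or_eq_true _ _).mp (A256.of j.2 (f (n8 a)).2) with e | e
    · rw [Bool.not_eq_true', ← Bool.not_eq_true] at e
      refine (e (List.all_eq_true.2 fun p m => ?_)).elim
      obtain ⟨w, e1, e2⟩ := A p m
      rw [← e1, ← e2, h, beq_self_eq_true]
    refine ih (fun p m => (List.mem_append.1 m).elim (hP p) fun m => ?_) e
    obtain ⟨p, m', rfl⟩ := List.mem_map.1 m
    exact A p m'

def l0 : ℕ := 0x9040601008050a01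
def W0 : List ℕ := [0, 1, 8, 9, 16, 17, 24, 25, 64, 65, 72, 73, 80, 81, 88, 89]
def ck (k : ℕ) (T : List (List ℕ)) : Prop := k < 11 ∧ k ≠ 0 ∧ ox k 8 = true ∧ bt k l0 [2, 4, 32, 128] (W0.map fun w => (w, w)) = true ∧
  (∀ u < 8, E0 (ev (kg k) (LW u) 2 ^^^ 2 ^^^ 8) = true → ∀ v < 256, ev (kg k) (LW u) v = ap l0 v) ∧
  (∀ W ∈ T, ∀ v < 256, ev (kg k) W (ap l0 v) = ap l0 (ev (kg k) W v)) ∧
  ∀ w < 256, w ≠ 0 → ap l0 w = w → ∃ W ∈ T, ev (kg k) W (ev (kg k) W 1) = w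
instance (k : ℕ) (T : List (List ℕ)) : Decidable (ck k T) := by unfold ck; infer_instance

theorem no {k : ℕ} (T : List (List ℕ)) (H : ck k T) : NO.{u} k := fun {G} _ _ _ {Q z π ρ} h => by
  obtain ⟨hk, k0, o, B, C1, C2, C3⟩ := H
  have m := h.toM
  obtain ⟨g, d⟩ := h.dt
  obtain ⟨g', p, e⟩ := h.toCx.pt hk (by decide) o fun e => (k0 e).elim
  have x1 : π (g * z * g⁻¹) = n8 1 := Fin.ext d.px
  have x8 : π (g' * z * g'⁻¹) = n8 8 := Fin.ext e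
  obtain ⟨j, -, -, f⟩ := fus (nw m d.pt) (v := n8 2) (by rw [x1]; decide)
  obtain ⟨hy, f⟩ := f _ p.1 (by rw [x1, x8]; decide)
  rw [show j * (g' * z * g'⁻¹) * j⁻¹ = j * g' * z * (j * g')⁻¹ by group] at hy
  rw [show j * (g' * z * g'⁻¹) * j⁻¹ = j * g' * z * (j * g')⁻¹ by group, x8, d.et] at f
  obtain ⟨u, hu, e⟩ := d.all _ hy
  have l : ρ (j * g' * z * (j * g')⁻¹) = A l0 := AddMonoidHom.ext fun v => Fin.ext ((e v).trans (C1 u hu (by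
    rw [add1, add1, e] at f; exact f) _ v.2))
  refine a5 (w₀ := n8 1) m (m.J (j * g')) (cy hy) (fun n => ?_) ?_ (fun w w0 e => ?_) ?_ fun c hc e => ?_
  · exact absurd (m.rQ (mem_cj_inv.1 (m.le.symm (by simpa only [inv_inv] using mem_cj.1 n))) (n8 2)) (by rw [l]; decide)
  · rw [l]; decide +kernel
  · obtain ⟨W, hW, e⟩ := C3 _ w.2 (fun e => w0 (Fin.ext e)) (by rw [l] at e; exact congrArg Fin.val e)
    obtain ⟨c, hc, k⟩ := h.toCx.ev W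
    exact ⟨c, hc, fun v => Fin.ext (by rw [l, k, A1, A1, k, C2 W hW _ v.2]), Fin.ext (by rw [k, k]; exact e)⟩
  · rw [l]; exact fun ε => (z2 ε).elim (fun e => ⟨n8 2, n8 32, by rw [e]; decide⟩) fun e => ⟨n8 2, n8 4, by rw [e]; decide⟩
  · obtain ⟨m, hm, e⟩ := bt.of (h.toSy.ox hk k0 hc) (fun p hp => by
      obtain ⟨w, hw, rfl⟩ := List.mem_map.1 hp
      have : (n8 w).1 = w ∧ A l0 (n8 w) = n8 w := by clear * - hw; revert w; decide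
      exact ⟨n8 w, this.1, by rw [e _ (l ▸ this.2), this.1]⟩) B
    rw [l]
    rcases List.mem_pair.1 hm with rfl | rfl
    exacts [.inl fun v => (e v).trans (Fin.ext (ap_ID v.2)), .inr e]

theorem no1 : NO.{u} 1 := no [[], [1, 5], [5, 1], [1, 3, 0, 4, 0, 3], [1, 3, 4, 0, 3, 4], [3, 4, 0, 3, 1, 4], [3, 4, 0, 3, 4, 1],
  [4, 0, 1, 3, 0, 4], [1, 3, 0, 4, 0, 2, 3], [1, 3, 4, 0, 2, 3, 4], [1, 3, 4, 0, 3, 1, 4], [1, 4, 0, 1, 3, 0, 4],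
  [2, 3, 0, 4, 0, 3, 1], [2, 3, 4, 0, 3, 1, 4], [1, 3, 4, 0, 3, 1, 4, 1]] (by decide +kernel)
theorem no2 : NO.{u} 2 := no [[], [1, 5], [5, 1], [2, 3, 4], [3, 2, 4], [3, 4, 2], [4, 2, 3], [1, 3, 2, 3], [1, 3, 2, 4],
  [1, 4, 2, 3], [2, 3, 2, 4], [2, 3, 4, 5], [2, 4, 2, 3], [3, 5, 2, 3], [1, 2, 3, 1, 4]] (by decide +kernel)

end H20.X9
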