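import Cfsg.Agent.H20.X91

/-! Large extraspecial subgroups of order `2⁹`: intersections of order four. -/

set_option autoImplicit false
set_option linter.unusedSectionVars false

open Subgroup
namespace H20.X9
open H0 H19 H10.Y H14.X9
open H10.R (N8 n8 BS ext8 n8v A8)

section
variable {V : Type*} [AddCommGroup V] [Module (ZMod 2) V] {q : V → ZMod 2} {b : V → V → ZMod 2}
  {G : Type*} [Group G] [Finite G] {Q Q' : Subgroup G} {z t y : G} {π : G → V} {ρ : G → V →+ V} {s u v : V}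
  (n : NW Q z π ρ q b Q' t) (hc : #(Q ⊓ Q' : Subgroup G) = 4)
include n hc

theorem E4 (hu : u ∈ Et Q Q' π) : u = 0 ∨ u = π t := by
  by_contra! k
  choose f f1 f2 using fun i : Fin 3 => show ![0, π t, u] i ∈ Et Q Q' π by fin_cases i; exacts [n.E0, n.Ex, hu]
  have i : Function.Injective ![0, π t, u] := fun i j e => by
    fin_cases i <;> fin_cases j <;> simp_all [n.x0, n.x0.symm, k.1.symm, k.2.symm]
  have zz : ∀ ε : Bool, (bif ε then z else 1) ∈ Q ⊓ Q' ∧ π (bif ε then z else 1) = 0 := fun ε => by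
    cases ε; exacts [⟨one_mem _, n.p1⟩, ⟨⟨n.zQ, n.lp.zQ⟩, n.pz⟩]
  have := Nat.card_le_card_of_injective (fun p : Bool × Fin 3 =>
    (⟨(bif p.1 then z else 1) * f p.2, mul_mem (zz _).1 (f1 _)⟩ : (Q ⊓ Q' : Subgroup G))) fun ⟨ε, p⟩ ⟨ε', p'⟩ e => by
      have e := congrArg Subtype.val e
      obtain rfl : p = p' := i (by simpa [n.add _ (zz _).1.1 _ (f1 _).1, (zz _).2, f2] using congrArg π e)
      have e := mul_right_cancel e
      cases ε <;> cases ε' <;> simp_all [n.z1, n.z1.symm]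
  simpa using this.trans hc.le
theorem S4 : Sp Q Q' π (π t) 0 0 := fun e he => (E4 n hc he).elim (fun k => ⟨0, 0, 0, by simp [k]⟩) fun k => ⟨1, 0, 0, by simp [k]⟩
/-- all Siegel maps at the point are induced by the second group -/
theorem H4 (hu : b u (π t) = 0) : u ∈ HG n := by
  obtain ⟨e, he, m⟩ := Hto n (S4 n hc) hu
  rcases E4 n hc he with rfl | rfl
  exacts [add_zero u ▸ m, (add_mem_cancel_right (Hx n)).1 m]
/-- all singular vectors are points, all Siegel maps are induced by the centralizer -/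
theorem allS (irr : ∀ S : AddSubgroup V, (∀ c, Commute z c → ∀ v ∈ S, ρ c v ∈ S) → S = ⊥ ∨ S = ⊤) (s0 : s ≠ 0)
    (qs : q s = 0) : (∃ c, Commute z c ∧ ρ c (π t) = s) ∧ ∀ u, b u s = 0 → Sg q b z ρ s u := by
  have A : ∀ c, Commute z c → ∀ u, b u (ρ c (π t)) = 0 → Sg q b z ρ (ρ c (π t)) u := fun c k u hu =>
    n.rinv' k u ▸ (Hs n (H4 n hc (by rw [← n.rb k, n.rinv' k, hu]))).J n.toM k
  obtain ⟨c, k, e⟩ := orb n.toM irr n.x0 s0
  obtain ⟨d, k', e'⟩ := orb n.toM irr n.x0 (v := ρ c (π t)) fun j => by simp [j, n.qs.b0] at e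
  obtain ⟨j, hj, ej⟩ := A c k (ρ d (π t) + s) (by rw [n.qs.badd, e', n.qs.symm, e]; rfl)
  have : ρ (j * d) (π t) = s := by
    simp [n.rmul hj k', ej, T, e', n.qs.badd', n.qs.qadd, n.qs.bs, n.rq k', n.Eq0 n.Ex, qs, z2_self, n.qs.can']
  exact ⟨⟨_, hj.mul_right k', this⟩, this ▸ A _ (hj.mul_right k')⟩
end

end H20.X9
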