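import Cfsg.Agent.H20.X93

/-! Large extraspecial subgroups of order `2⁹`: intersections of order four, minus type. -/

set_option autoImplicit false
set_option linter.unusedSectionVars false

open Subgroup
namespace H20.X9
open H0 H19 H10.Y H14.X9
open H10.R (N8 n8 BS ext8 n8v A8)

/-- the Siegel maps of the minus type form -/
abbrev Tm (s u : ℕ) (v : N8) : N8 := T (q false) b (n8 s) (n8 u) v
/-- the perp of the line -/
def Lp (v : N8) : Prop := b v (n8 1) = 0 ∧ b v (n8 4) = 0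
/-- the line -/
def Ll (v : N8) : Prop := v = 0 ∨ v = n8 1 ∨ v = n8 4 ∨ v = n8 5
instance (v : N8) : Decidable (Lp v) := by unfold Lp; infer_instance
instance (v : N8) : Decidable (Ll v) := by unfold Ll; infer_instance
/-- an element of order three -/
def k3 (v : N8) : N8 := Tm 1 8 (Tm 4 2 (Tm 1 8 (Tm 4 2 v)))

theorem c1 : ∀ v, (Tm 1 4 v = v ↔ Lp v) ∧ Ll (Tm 1 4 v + v) ∧ (Ll v → ∃ u, Tm 1 4 u + u = v) ∧
    Tm 1 8 (Tm 4 2 (Tm 1 4 v)) = Tm 1 4 (Tm 1 8 (Tm 4 2 v)) ∧ k3 (k3 (k3 v)) = v ∧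
    ((∀ w ∈ [1, 4, 16, 32, 112, 176], b v (n8 w) = 0) → Ll v) ∧ (Ll v → ∀ w, Lp w → b v w = 0) ∧
    (Ll v → k3 v = v → v = 0) ∧ Tm 1 5 v = Tm 1 4 v := by decide +kernel
theorem c2 : ∀ s ∈ [1, 4, 16, 32, 112, 176], q false (n8 s) = 0 ∧ n8 s ≠ 0 ∧ ∃ u ∈ [16, 64, 80], ∃ v ∈ [32, 128, 144],
    b (n8 u) (n8 s) = 0 ∧ Lp (n8 v) ∧ Tm s u (n8 1) = n8 1 ∧ Tm s u (n8 4) = n8 4 ∧ n8 v + Tm s u (n8 v) = n8 s := by
  decide +kernel
theorem c3 : Fintype.card {v : N8 // q false v = 0 ∧ Lp v ∧ ¬ Ll v} = 20 := by rw [Fintype.card_subtype]; decide +kernel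

theorem fin (f κ g : N8 →+ N8) (hκ : ∀ v, κ v = k3 v) (hg : ∀ v, g v = Tm 1 4 v) (hq : ∀ v, q false (f v) = q false v)
    (hb : ∀ u v, b (f u) (f v) = b u v) (c : ∀ v, f (κ v) = κ (f v)) (f1 : f (n8 1) = n8 1)
    (L : ∀ w, Lp w → Ll (f w + w)) : (∀ v, f v = v) ∨ ∀ v, f v = g v := by
  have A : ∀ w, Lp w → k3 w = w → f w = w := fun w a e => (qs false).eq_iff.1 ((c1 _).2.2.2.2.2.2.2.1 (L w a) (by
    rw [← hκ, map_add, ← c, hκ, e]))
  have f4 : f (n8 4) = n8 4 := by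
    have := c (n8 1)
    rwa [f1, hκ, show k3 (n8 1) = n8 4 + n8 1 by decide +kernel, map_add, f1, add_left_inj] at this
  have f5 := A (n8 16) (by decide) (by decide +kernel)
  have f6 := A (n8 32) (by decide) (by decide +kernel)
  have f7 := A (n8 64) (by decide) (by decide +kernel)
  have f8 := A (n8 128) (by decide) (by decide +kernel)
  have B : ∀ v, ∀ w ∈ [1, 4, 16, 32, 64, 128], b (f v) (n8 w) = b v (n8 w) := fun v w hw => by
    rw [← hb v]; congr 1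
    simp only [List.mem_cons, List.not_mem_nil, or_false] at hw
    rcases hw with rfl | rfl | rfl | rfl | rfl | rfl <;> symm <;> assumption
  have a2 := (show ∀ α : N8, q false α = q false (n8 2) → (∀ w ∈ [1, 4, 16, 32, 64, 128], b α (n8 w) = b (n8 2) (n8 w)) →
    α = n8 2 ∨ α = n8 6 by decide +kernel) _ (hq _) (B _)
  have a8 := (show ∀ α : N8, q false α = q false (n8 8) → (∀ w ∈ [1, 4, 16, 32, 64, 128], b α (n8 w) = b (n8 8) (n8 w)) →
    α = n8 8 ∨ α = n8 9 by decide +kernel) _ (hq _) (B _)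
  have := hb (n8 2) (n8 8)
  rcases a2 with a2 | a2 <;> rcases a8 with a8 | a8 <;> rw [a2, a8] at this
  · exact .inl (ext8 (f' := AddMonoidHom.id _) (by simp [BS, *]))
  · exact absurd this (by decide)
  · exact absurd this (by decide)
  · exact .inr (ext8 (by simp only [BS, List.forall_mem_cons, f1, f4, f5, f6, f7, f8, a2, a8, hg, List.not_mem_nil,
      false_imp_iff, implies_true]; decide +kernel))

variable {G : Type*} [Group G] [Finite G] {Q Q' : Subgroup G} {z t y j g : G} {π : G → N8} {ρ : G → N8 →+ N8}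

section
variable (n : NW Q z π ρ (q false) b Q' t) (hc : #(Q ⊓ Q' : Subgroup G) = 4) (x1 : π t = n8 1)
  (S : ∀ s u : ℕ, n8 s ≠ 0 → q false (n8 s) = 0 → b (n8 u) (n8 s) = 0 → ∃ k, Commute z k ∧ ∀ v, ρ k v = Tm s u v)
include n hc x1 S

theorem exj : ∃ y ∈ Q' ⊓ C[z], ∃ j, (∀ v, ρ y v = Tm 1 4 v) ∧ j * z * j⁻¹ = y ∧ j * y * j⁻¹ = z ∧ j * t * j⁻¹ = t := by
  classical
  obtain ⟨p, hp, p4⟩ := n.surj (n8 4)
  obtain ⟨g, g1, g2, f⟩ := fus n (v := n8 2) (by rw [x1]; decide)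
  obtain ⟨hy, f⟩ := f p hp (by rw [x1, p4]; decide)
  obtain ⟨k, hk, e⟩ := S 10 5 (by decide) (by decide) (by decide)
  have zt := mul_mem n.zQ n.tQ
  have A : ∀ d ∈ Q, ∀ a ∈ Q, ∀ a' ∈ Q, π a' = π a → b (π d) (π a) = (if a' = a then 0 else 1) → d * a' * d⁻¹ = a :=
    fun d hd a ha a' ha' e k => by
      split_ifs at k with i
      · rw [i, ((n.cm d hd a ha).2 k).eq, mul_inv_cancel_right]
      · rw [n.cjz hd ha' (by rw [e, k]; decide), (n.eq_of ha' ha e).resolve_left i, ← mul_assoc, n.zz, one_mul]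
  obtain ⟨v, v1, v2⟩ := (show ∀ α β, ∃ v, b v (n8 4) = α ∧ b v (n8 1) = β by decide +kernel)
    (if k * (z * t) * k⁻¹ = p then 0 else 1) (if k * p * k⁻¹ = z * t then 0 else 1)
  obtain ⟨d, hd, rfl⟩ := n.surj v
  have e1 := A d hd p hp _ (n.nm hk zt) (by rw [n.conj k hk _ zt, n.pzm n.tQ, x1, p4, e]; decide +kernel) (p4 ▸ v1)
  have e2 := A d hd _ zt _ (n.nm hk hp) (by rw [n.conj k hk _ hp, n.pzm n.tQ, x1, p4, e]; decide +kernel)
    (by rwa [n.pzm n.tQ, x1])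
  have g3 : g * (z * t) * g⁻¹ = z := by rw [← conj_mul, g1, g2, ← mul_assoc, ← (n.zc n.tQ).eq, mul_assoc, n.tt, mul_one]
  refine ⟨_, hy, g * (d * k) * g⁻¹, fun v => ?_, ?_, ?_, ?_⟩
  · rw [sie n (S4 n hc) hy (v := n8 2) (by rw [x1]; decide), x1]
    rcases E4 n hc f with i | i <;> rw [p4] at i
    · rw [(qs false).eq_iff.1 i]
    · rw [← (qs false).can (_ + n8 2) (n8 4), i, x1]; exact (c1 v).2.2.2.2.2.2.2.2
  · rw [← e1]; conv_lhs => rw [← g3]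
    group
  · rw [← g3, ← e2]; group
  · rw [← g1, show g * (d * k) * g⁻¹ * (g * z * g⁻¹) * (g * (d * k) * g⁻¹)⁻¹ = g * (d * k * z * (d * k)⁻¹) * g⁻¹ by group,
      ← ((n.zc hd).mul_right hk).eq, mul_inv_cancel_right]

theorem np4 (hy : y ∈ Q' ⊓ C[z]) (r : ∀ v, ρ y v = Tm 1 4 v) : NP Q π ρ y := by
  have A : ∀ s ∈ [1, 4, 16, 32, 112, 176], ∃ a ∈ Q, Commute y a ∧ π a = n8 s := fun s hs => by
    obtain ⟨q0, s0, u, -, v, -, us, lv, e1, e4, e⟩ := c2 s hs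
    obtain ⟨k, hk, ek⟩ := S s u s0 q0 us
    obtain ⟨k, hk, kt, ek⟩ : ∃ k, Commute z k ∧ Commute t k ∧ ∀ v, ρ k v = Tm s u v :=
      let ⟨k', a, c, e⟩ := n.lift hk (by rw [x1, ek, e1]); ⟨k', a, c, fun v => (e v).trans (ek v)⟩
    obtain ⟨a, ha, av⟩ := n.surj (n8 v)
    have m : k * y * k⁻¹ ∈ Q' ⊓ C[z] := ⟨n.nm' kt hy.1, mem_cent1.2 ((hk.mul_right (cy hy)).mul_right hk.inv_right).symm⟩
    have m1 := n.triv' (cy hy) (cy m) fun w => by
      rw [rcj n.toM hk (cy hy), r, r, TJ n.toM hk, n.rinv' hk, ek, ek, e1, e4]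
    have a' := n.nm hk ha
    have c : Commute (y⁻¹ * (k * y * k⁻¹)) (k * a * k⁻¹) := (n.cm _ m1 _ a').2 (by
      rcases E4 n hc ⟨_, ⟨m1, Q'.mul_mem (Q'.inv_mem hy.1) m.1⟩, rfl⟩ with i | i <;> rw [i]
      · exact n.qs.b0 _
      · rw [n.conj k hk a ha, x1, ← e1, ← ek, n.rb hk, av, n.qs.symm, lv.1])
    have c' : y * (k * a * k⁻¹) * y⁻¹ = k * (y * a * y⁻¹) * k⁻¹ := by
      rw [← mul_inv_cancel_right (k * a * k⁻¹) (y⁻¹ * (k * y * k⁻¹)), ← c.eq]; group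
    refine ⟨_, mul_mem ha a', mul_inv_eq_iff_eq_mul.1 ?_, by rw [n.add _ ha _ a', n.conj k hk a ha, av, ek, e]⟩
    rw [← conj_mul, c']
    rcases n.fx' (cy hy) ha (by rw [av, r, (c1 _).1.2 lv]) with i | i
    · rw [i.eq, mul_inv_cancel_right]
    · rw [i, ← conj_mul, ← hk.eq, mul_inv_cancel_right, (n.zc ha).symm.mul_mul_mul_comm, n.zz, one_mul]
  intro a ha e
  obtain ⟨d, hd, c, e⟩ := n.qs.sep (x := π a)
    { carrier := {v | ∃ a ∈ Q, Commute y a ∧ π a = v}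
      zero_mem' := ⟨1, one_mem _, .one_right _, n.p1⟩
      add_mem' := fun ⟨a, ha, c, e⟩ ⟨d, hd, c', e'⟩ => ⟨_, mul_mem ha hd, c.mul_right c', by rw [n.add a ha d hd, e, e']⟩
      neg_mem' := id } fun k hk => (c1 k).2.2.2.2.2.2.1 ((c1 k).2.2.2.2.2.1 fun w hw => hk _ (A w hw)) _
        ((c1 _).1.1 (r _ ▸ e))
  rcases n.eq_of ha hd e.symm with rfl | rfl
  exacts [c, (cy hy).symm.mul_right c]

theorem core : False := by
  obtain ⟨y, hy, j, r, jz, jy, jt⟩ := exj n hc x1 S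
  have np := np4 n hc x1 S hy r
  have c := cy hy
  have h' := n.toM.J j
  rw [jz] at h'
  have yQ : y ∉ Q := fun k => absurd (n.rQ k (n8 2)) (by rw [r]; decide)
  have jj : cj j⁻¹ Q = cj j Q := n.le.cj_eq (by rw [jz, ← jy]; group)
  have zn : z ∉ cj j Q := fun k => yQ (by rw [← jz]; exact mem_cj_inv.1 (jj ▸ k))
  have np' : ∀ a ∈ Q, Lp (π a) → Commute y a := fun a ha l => np a ha (by rw [r, (c1 _).1.2 l])
  have D : ∀ e ∈ Q, e ∈ cj j Q → Ll (π e) := fun e he he' => (c1 _).2.2.2.2.2.1 fun w hw => by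
    obtain ⟨a, ha, e'⟩ := n.surj (n8 w)
    have := h'.nm (np' a ha (by rw [e']; clear * - hw; revert w; decide)) he'
    rw [n.qs.symm, ← e']
    by_contra k
    exact zn ((mul_mem_cancel_right he').1 (n.cjz ha he k ▸ this))
  obtain ⟨k, kz, ky, k1, ek⟩ : ∃ k, Commute z k ∧ Commute y k ∧ k * k * k = 1 ∧ ∀ v, ρ k v = k3 v := by
    obtain ⟨a, ha, ea⟩ := S 1 8 (by decide) (by decide) (by decide)
    obtain ⟨d, hd, ed⟩ := S 4 2 (by decide) (by decide) (by decide)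
    obtain ⟨x, hx, e⟩ := n.cov c h'.zz np (ha.mul_right hd) fun v => by
      simp only [n.rmul ha hd, ea, ed, r, (c1 v).2.2.2.1]
    have k := (n.zc hx).mul_right (ha.mul_right hd)
    have e1 : ∀ v, ρ (x * (a * d) * (x * (a * d))) v = k3 v := fun v => by
      simp only [n.rmul k k, n.rmul (n.zc hx) (ha.mul_right hd), n.rQ hx, n.rmul ha hd, ea, ed, k3]
    generalize x * (a * d) = g at *
    have e2 : Commute y (g * g) := (mul_inv_eq_iff_eq_mul.1 (by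
      rw [show g * g * y * (g * g)⁻¹ = g * (g * y * g⁻¹) * g⁻¹ by group]
      rcases e with e | e <;> rw [e]
      · exact e
      · rw [← mul_assoc, ← k.eq, mul_assoc z, mul_assoc z, e, ← mul_assoc, n.zz, one_mul])).symm
    replace k := k.mul_right k
    generalize g * g = f at *
    have k3' := (k.mul_right k).mul_right k
    have e3 : ∀ v, ρ (f * f * f) v = v := fun v => by
      rw [n.rmul (k.mul_right k) k, n.rmul k k, e1, e1, e1, (c1 v).2.2.2.2.1]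
    refine ⟨f * f * f * f, k3'.mul_right k, ((e2.mul_right e2).mul_right e2).mul_right e2, ?_, fun v => by
      rw [n.rmul k3' k, e3, e1]⟩
    rw [← n.le.es.pow4 (n.triv k3' e3)]; simp only [pow_succ, pow_zero, one_mul, mul_assoc]
  have lz : Commute z (j⁻¹ * k * j) := by simpa [← jz, mul_assoc] using ky.conj j⁻¹
  have ly : Commute y (j⁻¹ * k * j) := by simpa [← jy, mul_assoc] using kz.conj j⁻¹
  have l1 : j⁻¹ * k * j * (j⁻¹ * k * j) * (j⁻¹ * k * j) = 1 := by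
    rw [show j⁻¹ * k * j * (j⁻¹ * k * j) * (j⁻¹ * k * j) = j⁻¹ * (k * k * k) * j by group, k1]; group
  have el : j * (j⁻¹ * k * j) * j⁻¹ = k := by group
  generalize j⁻¹ * k * j = l at lz ly l1 el
  have l3 : ∀ v, ρ l (ρ l (ρ l v)) = v := fun v => by rw [← n.rmul lz lz, ← n.rmul (lz.mul_right lz) lz, l1, n.r1]
  have inv : ∀ v, q false v = 0 ∧ Lp v ∧ ¬ Ll v → q false (ρ l v) = 0 ∧ Lp (ρ l v) ∧ ¬ Ll (ρ l v) := fun v ⟨a1, a2, a3⟩ =>
    ⟨by rw [n.rq lz, a1], (c1 _).1.1 (by rw [← r, n.rcm c lz ly, r, (c1 _).1.2 a2]), fun i => a3 (by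
      obtain ⟨u, e⟩ := (c1 _).2.2.1 i
      rw [← n.rinv lz v, ← e, map_add, ← r, ← n.rcm c lz.inv_right ly.inv_right, r]
      exact (c1 _).2.1)⟩
  let σ : Equiv.Perm {v : N8 // q false v = 0 ∧ Lp v ∧ ¬ Ll v} := ⟨fun v => ⟨_, inv v.1 v.2⟩,
    fun v => ⟨_, inv _ (inv v.1 v.2)⟩, fun v => Subtype.ext (l3 _), fun v => Subtype.ext (l3 _)⟩
  obtain ⟨⟨v, v0, v1, v2⟩, e⟩ := Equiv.Perm.exists_fixed_point_of_prime (p := 3) (n := 1) (by rw [c3]; decide) (σ := σ)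
    (by rw [pow_one, pow_three]; exact Equiv.ext fun v => Subtype.ext (l3 v.1))
  obtain ⟨a, ha, rfl⟩ := n.surj v
  have la : Commute l a := (n.fx' lz ha (congrArg Subtype.val e)).resolve_right fun i => n.z1 (by
    have i2 : ∀ x, l * (z * x) * l⁻¹ = z * (l * x * l⁻¹) := fun x => by rw [← conj_mul, ← lz.eq, mul_inv_cancel_right]
    have : l * l * l * a * (l * l * l)⁻¹ = l * (l * (l * a * l⁻¹) * l⁻¹) * l⁻¹ := by group
    rw [l1, i, i2, i, ← mul_assoc z, n.zz, one_mul a, i] at this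
    simpa using this)
  have m : j * a * j⁻¹ ∈ cj j Q := conj_mem_cj.2 ha
  have pz : Commute z (j * a * j⁻¹) := jy ▸ (np' a ha v1).conj j
  rcases fin (ρ (j * a * j⁻¹)) (ρ k) (ρ y) ek r (n.rq pz) (n.rb pz) (n.rcm pz kz (el ▸ la.symm.conj j))
    (x1 ▸ n.fx pz n.tQ (jt ▸ ((n.cm a ha t n.tQ).2 (x1 ▸ v1.1)).conj j)) (fun w hw => by
      obtain ⟨d, hd, rfl⟩ := n.surj w
      rw [← n.pcm pz hd]
      exact D _ (n.mcm pz hd) (mul_mem (h'.nm (np' d hd hw) m) (inv_mem m))) with e | e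
  · exact v2 (D a ha (jj ▸ mem_cj_inv.2 (n.triv pz e)))
  · have := n.triv' pz c e
    rw [← jz, conj_inv, conj_mul] at this
    have := D _ (mul_mem (inv_mem ha) n.zQ) (jj ▸ mem_cj_inv.2 this)
    rw [n.add _ (inv_mem ha) _ n.zQ, n.pinv ha, n.pz, add_zero] at this
    exact v2 this
end

theorem d0f {g : G} (h : Hy Q z π ρ false) (p : Pt Q z g) (hc : #(Q ⊓ cj g Q : Subgroup G) = 4) : False := by
  have A := fun s => allS (s := s) (nw h.toM p) hc h.irr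
  obtain ⟨⟨c, k, e⟩, -⟩ := A (n8 1) (by decide) (by decide)
  exact core (nw h.toM (p.J h.toM k).1) (by
    rw [← hc, ← card_cj c (Q ⊓ cj g Q), cj_inf, cj_of_mem_norm (h.le.norm (mem_cent1.2 k.symm)), cj_mul]) ((p.J h.toM k).2.trans e)
    fun s u s0 qs hu => (A _ s0 qs).2 _ hu

end H20.X9
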